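import Mathlib
import Cfsg.Agent.H325.Same.ExcPair8

/-!
# Simple groups of Lie type in characteristic `p` containing two classes of tori of `E_7(q)`, `E_8(q)` (helper325)

`E_8`: {24,30}, {20,30}; `E_7`: {14,18}, {9,18} and a prime of class 5, {7,14} and a prime of class 5.
-/

set_option autoImplicit false
set_option linter.unreachableTactic false
set_option linter.unusedTactic false
set_option maxHeartbeats 4000000

namespace Cfsg.Agent.H325.Same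

open Cfsg.Agent.OrdDiv Cfsg.Agent.H436 Cfsg.Agent.H915.GN Cfsg.Agent.H264.GN Cfsg.Agent.H264.FKS

variable {p f c : ℕ} {g : Grp}

theorem elimP_e7_14_18 (hg : Cond g) (hch : HasChar p g) {i : ℕ} (hi : i ∈ [2, 6, 8, 10, 12, 14, 18]) (hei : 18 ≤ i)
    (h2 : ag g * i ≤ 63 * Mg g) (h1 : ∃ x, Xg g x ∧ 14 * Mg g ∣ i * x) (h3 : ∃ x, Xg g x ∧ 18 * Mg g ∣ i * x)
    (hY : ∀ k, (k = 4 ∨ k = 5 ∨ 7 ≤ k) → Yg g k → ∃ j, j ∈ [2, 6, 8, 10, 12, 14, 18] ∧ i * k ∣ Mg g * j) :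
    (i = 18 ∧ ∃ q, g = .psu 9 q) ∨ (i = 18 ∧ ∃ q, g = .psu 10 q) ∨ (i = 18 ∧ ∃ q, g = .e7 q) := by
  obtain ⟨x, hx, hxd⟩ := h1
  obtain ⟨y, hy, hyd⟩ := h3
  have hi2 : i = 18 := by
    simp only [List.mem_cons, List.not_mem_nil, or_false] at hi
    omega
  clear hi hei
  rcases hi2 with rfl
  · have h2' : 2 * ag g ≤ 7 * Mg g := by omega
    clear h2
    cases g
    case psl m q =>
      obtain ⟨hm, -, -⟩ := hg
      have hb := bd_psl (ρ := 7) (by omega) h2'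
      have hx' : 1 ≤ x ∧ x ≤ m := hx
      have hy' : 1 ≤ y ∧ y ≤ m := hy
      have hxd' : 14 * m ∣ 18 * x := hxd
      have hyd' : 18 * m ∣ 18 * y := hyd
      clear hx hy hxd hyd h2' hch hY
      interval_cases m <;> first | omega | exact Or.inl ⟨rfl, q, rfl⟩ | exact Or.inr (Or.inl ⟨rfl, q, rfl⟩) | exact Or.inr (Or.inr (⟨rfl, q, rfl⟩))
    case psp m q =>
      obtain ⟨hm, -, -⟩ := hg
      have hb := bd_psp (ρ := 7) (by omega) h2'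
      have hx' : 1 ≤ x ∧ x ≤ 2 * m ∧ 2 ∣ x := hx
      have hy' : 1 ≤ y ∧ y ≤ 2 * m ∧ 2 ∣ y := hy
      have hxd' : 14 * (2 * m) ∣ 18 * x := hxd
      have hyd' : 18 * (2 * m) ∣ 18 * y := hyd
      clear hx hy hxd hyd h2' hch hY
      interval_cases m <;> first | omega | exact Or.inl ⟨rfl, q, rfl⟩ | exact Or.inr (Or.inl ⟨rfl, q, rfl⟩) | exact Or.inr (Or.inr (⟨rfl, q, rfl⟩))
    case oodd m q =>
      obtain ⟨hm, -, -⟩ := hg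
      have hb := bd_psp (ρ := 7) (by omega) h2'
      have hx' : 1 ≤ x ∧ x ≤ 2 * m ∧ 2 ∣ x := hx
      have hy' : 1 ≤ y ∧ y ≤ 2 * m ∧ 2 ∣ y := hy
      have hxd' : 14 * (2 * m) ∣ 18 * x := hxd
      have hyd' : 18 * (2 * m) ∣ 18 * y := hyd
      clear hx hy hxd hyd h2' hch hY
      interval_cases m <;> first | omega | exact Or.inl ⟨rfl, q, rfl⟩ | exact Or.inr (Or.inl ⟨rfl, q, rfl⟩) | exact Or.inr (Or.inr (⟨rfl, q, rfl⟩))
    case psu m q =>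
      obtain ⟨hm, -, -⟩ := hg
      have hb := bd_psu (ρ := 7) hm h2'
      have hx' : (1 ≤ x ∧ x ≤ m ∧ 2 ∣ x) ∨ ∃ j, x = 2 * j ∧ j ≤ m ∧ j % 2 = 1 := hx
      have hy' : (1 ≤ y ∧ y ≤ m ∧ 2 ∣ y) ∨ ∃ j, y = 2 * j ∧ j ≤ m ∧ j % 2 = 1 := hy
      obtain ⟨k, hk⟩ : ∃ k, k = (if m % 2 = 0 then m - 1 else m) := ⟨_, rfl⟩
      have hk' : (m % 2 = 0 ∧ k = m - 1) ∨ (m % 2 = 1 ∧ k = m) := by
        rw [hk]
        split_ifs <;> omega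
      have hM : Mg (.psu m q) = 2 * k := by rw [hk]; rfl
      have hxd' : 14 * (2 * k) ∣ 18 * x := hM ▸ hxd
      have hyd' : 18 * (2 * k) ∣ 18 * y := hM ▸ hyd
      clear hx hy hxd hyd h2' hch hY hM hk
      rcases hk' with ⟨hk1, hk2⟩ | ⟨hk1, hk2⟩ <;> rcases hx' with hx' | ⟨j, rfl, hx'⟩ <;>
        rcases hy' with hy' | ⟨l, rfl, hy'⟩ <;> interval_cases m <;> subst hk2 <;> first | omega | exact Or.inl ⟨rfl, q, rfl⟩ | exact Or.inr (Or.inl ⟨rfl, q, rfl⟩) | exact Or.inr (Or.inr (⟨rfl, q, rfl⟩))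
    case oplus m q =>
      obtain ⟨hm, -⟩ := hg
      have hb := bd_oplus (ρ := 7) (by omega) h2'
      have hx' : 1 ≤ x ∧ x ≤ 2 * (m - 1) ∧ (2 ∣ x ∨ x = m) := hx
      have hy' : 1 ≤ y ∧ y ≤ 2 * (m - 1) ∧ (2 ∣ y ∨ y = m) := hy
      have hxd' : 14 * (2 * (m - 1)) ∣ 18 * x := hxd
      have hyd' : 18 * (2 * (m - 1)) ∣ 18 * y := hyd
      clear hx hy hxd hyd h2' hch hY
      interval_cases m <;> first | omega | exact Or.inl ⟨rfl, q, rfl⟩ | exact Or.inr (Or.inl ⟨rfl, q, rfl⟩) | exact Or.inr (Or.inr (⟨rfl, q, rfl⟩))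
    case ominus m q =>
      obtain ⟨hm, -⟩ := hg
      have hb := bd_ominus (ρ := 7) (by omega) h2'
      have hx' : 1 ≤ x ∧ x ≤ 2 * m ∧ 2 ∣ x := hx
      have hy' : 1 ≤ y ∧ y ≤ 2 * m ∧ 2 ∣ y := hy
      have hxd' : 14 * (2 * m) ∣ 18 * x := hxd
      have hyd' : 18 * (2 * m) ∣ 18 * y := hyd
      clear hx hy hxd hyd h2' hch hY
      interval_cases m <;> first | omega | exact Or.inl ⟨rfl, q, rfl⟩ | exact Or.inr (Or.inl ⟨rfl, q, rfl⟩) | exact Or.inr (Or.inr (⟨rfl, q, rfl⟩))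
    case g2 q =>
      have hx' : x ∈ [2, 6] := hx
      have hy' : y ∈ [2, 6] := hy
      have hxd' : 14 * 6 ∣ 18 * x := hxd
      have hyd' : 18 * 6 ∣ 18 * y := hyd
      have h4 : 2 * 6 ≤ 7 * 6 := h2'
      simp only [List.mem_cons, List.not_mem_nil, or_false] at hx' hy'
      clear hx hy hxd hyd h2' hch hY
      first | omega | exact Or.inl ⟨rfl, q, rfl⟩ | exact Or.inr (Or.inl ⟨rfl, q, rfl⟩) | exact Or.inr (Or.inr (⟨rfl, q, rfl⟩))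
    case f4 q =>
      have hx' : x ∈ [2, 6, 8, 12] := hx
      have hy' : y ∈ [2, 6, 8, 12] := hy
      have hxd' : 14 * 12 ∣ 18 * x := hxd
      have hyd' : 18 * 12 ∣ 18 * y := hyd
      have h4 : 2 * 24 ≤ 7 * 12 := h2'
      simp only [List.mem_cons, List.not_mem_nil, or_false] at hx' hy'
      clear hx hy hxd hyd h2' hch hY
      first | omega | exact Or.inl ⟨rfl, q, rfl⟩ | exact Or.inr (Or.inl ⟨rfl, q, rfl⟩) | exact Or.inr (Or.inr (⟨rfl, q, rfl⟩))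
    case e6 q =>
      have hx' : x ∈ [2, 5, 6, 8, 9, 12] := hx
      have hy' : y ∈ [2, 5, 6, 8, 9, 12] := hy
      have hxd' : 14 * 12 ∣ 18 * x := hxd
      have hyd' : 18 * 12 ∣ 18 * y := hyd
      have h4 : 2 * 36 ≤ 7 * 12 := h2'
      simp only [List.mem_cons, List.not_mem_nil, or_false] at hx' hy'
      clear hx hy hxd hyd h2' hch hY
      first | omega | exact Or.inl ⟨rfl, q, rfl⟩ | exact Or.inr (Or.inl ⟨rfl, q, rfl⟩) | exact Or.inr (Or.inr (⟨rfl, q, rfl⟩))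
    case e7 q =>
      have hx' : x ∈ [2, 6, 8, 10, 12, 14, 18] := hx
      have hy' : y ∈ [2, 6, 8, 10, 12, 14, 18] := hy
      have hxd' : 14 * 18 ∣ 18 * x := hxd
      have hyd' : 18 * 18 ∣ 18 * y := hyd
      have h4 : 2 * 63 ≤ 7 * 18 := h2'
      simp only [List.mem_cons, List.not_mem_nil, or_false] at hx' hy'
      clear hx hy hxd hyd h2' hch hY
      first | omega | exact Or.inl ⟨rfl, q, rfl⟩ | exact Or.inr (Or.inl ⟨rfl, q, rfl⟩) | exact Or.inr (Or.inr (⟨rfl, q, rfl⟩))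
    case e8 q =>
      have hx' : x ∈ [2, 8, 12, 14, 18, 20, 24, 30] := hx
      have hy' : y ∈ [2, 8, 12, 14, 18, 20, 24, 30] := hy
      have hxd' : 14 * 30 ∣ 18 * x := hxd
      have hyd' : 18 * 30 ∣ 18 * y := hyd
      have h4 : 2 * 120 ≤ 7 * 30 := h2'
      simp only [List.mem_cons, List.not_mem_nil, or_false] at hx' hy'
      clear hx hy hxd hyd h2' hch hY
      first | omega | exact Or.inl ⟨rfl, q, rfl⟩ | exact Or.inr (Or.inl ⟨rfl, q, rfl⟩) | exact Or.inr (Or.inr (⟨rfl, q, rfl⟩))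
    case te6 q =>
      have hx' : x ∈ [2, 10, 6, 8, 18, 12] := hx
      have hy' : y ∈ [2, 10, 6, 8, 18, 12] := hy
      have hxd' : 14 * 18 ∣ 18 * x := hxd
      have hyd' : 18 * 18 ∣ 18 * y := hyd
      have h4 : 2 * 36 ≤ 7 * 18 := h2'
      simp only [List.mem_cons, List.not_mem_nil, or_false] at hx' hy'
      clear hx hy hxd hyd h2' hch hY
      first | omega | exact Or.inl ⟨rfl, q, rfl⟩ | exact Or.inr (Or.inl ⟨rfl, q, rfl⟩) | exact Or.inr (Or.inr (⟨rfl, q, rfl⟩))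
    case td4 q =>
      have hx' : x ∈ [2, 6, 12] := hx
      have hy' : y ∈ [2, 6, 12] := hy
      have hxd' : 14 * 12 ∣ 18 * x := hxd
      have hyd' : 18 * 12 ∣ 18 * y := hyd
      have h4 : 2 * 12 ≤ 7 * 12 := h2'
      simp only [List.mem_cons, List.not_mem_nil, or_false] at hx' hy'
      clear hx hy hxd hyd h2' hch hY
      first | omega | exact Or.inl ⟨rfl, q, rfl⟩ | exact Or.inr (Or.inl ⟨rfl, q, rfl⟩) | exact Or.inr (Or.inr (⟨rfl, q, rfl⟩))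
    case sz q =>
      have hx' : x ∈ [1, 4] := hx
      have hy' : y ∈ [1, 4] := hy
      have hxd' : 14 * 4 ∣ 18 * x := hxd
      have hyd' : 18 * 4 ∣ 18 * y := hyd
      have h4 : 2 * 2 ≤ 7 * 4 := h2'
      simp only [List.mem_cons, List.not_mem_nil, or_false] at hx' hy'
      clear hx hy hxd hyd h2' hch hY
      first | omega | exact Or.inl ⟨rfl, q, rfl⟩ | exact Or.inr (Or.inl ⟨rfl, q, rfl⟩) | exact Or.inr (Or.inr (⟨rfl, q, rfl⟩))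
    case ree q =>
      have hx' : x ∈ [1, 6] := hx
      have hy' : y ∈ [1, 6] := hy
      have hxd' : 14 * 6 ∣ 18 * x := hxd
      have hyd' : 18 * 6 ∣ 18 * y := hyd
      have h4 : 2 * 3 ≤ 7 * 6 := h2'
      simp only [List.mem_cons, List.not_mem_nil, or_false] at hx' hy'
      clear hx hy hxd hyd h2' hch hY
      first | omega | exact Or.inl ⟨rfl, q, rfl⟩ | exact Or.inr (Or.inl ⟨rfl, q, rfl⟩) | exact Or.inr (Or.inr (⟨rfl, q, rfl⟩))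
    case tf4 q =>
      have hx' : x ∈ [1, 6, 4, 12] := hx
      have hy' : y ∈ [1, 6, 4, 12] := hy
      have hxd' : 14 * 12 ∣ 18 * x := hxd
      have hyd' : 18 * 12 ∣ 18 * y := hyd
      have h4 : 2 * 12 ≤ 7 * 12 := h2'
      simp only [List.mem_cons, List.not_mem_nil, or_false] at hx' hy'
      clear hx hy hxd hyd h2' hch hY
      first | omega | exact Or.inl ⟨rfl, q, rfl⟩ | exact Or.inr (Or.inl ⟨rfl, q, rfl⟩) | exact Or.inr (Or.inr (⟨rfl, q, rfl⟩))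
    all_goals exact absurd hch not_false

theorem elimP_e7_5_18 (hg : Cond g) (hch : HasChar p g) {i : ℕ} (hi : i ∈ [2, 6, 8, 10, 12, 14, 18]) (hei : 18 ≤ i)
    (h2 : ag g * i ≤ 63 * Mg g) (h1 : ∃ x, Xg g x ∧ 5 * Mg g ∣ i * x) (h3 : ∃ x, Xg g x ∧ 18 * Mg g ∣ i * x)
    (hY : ∀ k, (k = 4 ∨ k = 5 ∨ 7 ≤ k) → Yg g k → ∃ j, j ∈ [2, 6, 8, 10, 12, 14, 18] ∧ i * k ∣ Mg g * j) :
    (i = 18 ∧ ∃ q, g = .psu 9 q) ∨ (i = 18 ∧ ∃ q, g = .psu 10 q) ∨ (i = 18 ∧ ∃ q, g = .te6 q) ∨ (i = 18 ∧ ∃ q, g = .e7 q) := by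
  obtain ⟨x, hx, hxd⟩ := h1
  obtain ⟨y, hy, hyd⟩ := h3
  have hi2 : i = 18 := by
    simp only [List.mem_cons, List.not_mem_nil, or_false] at hi
    omega
  clear hi hei
  rcases hi2 with rfl
  · have h2' : 2 * ag g ≤ 7 * Mg g := by omega
    clear h2
    cases g
    case psl m q =>
      obtain ⟨hm, -, -⟩ := hg
      have hb := bd_psl (ρ := 7) (by omega) h2'
      have hx' : 1 ≤ x ∧ x ≤ m := hx
      have hy' : 1 ≤ y ∧ y ≤ m := hy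
      have hxd' : 5 * m ∣ 18 * x := hxd
      have hyd' : 18 * m ∣ 18 * y := hyd
      have hY5 : 5 ≤ m → 90 ∣ m * 2 ∨ 90 ∣ m * 6 ∨ 90 ∣ m * 8 ∨ 90 ∣ m * 10 ∨ 90 ∣ m * 12 ∨ 90 ∣ m * 14 ∨ 90 ∣ m * 18 := by
        intro h
        obtain ⟨j, hj, hjd⟩ := hY 5 (by norm_num) (show 2 ≤ 5 ∧ 5 ≤ m from ⟨by norm_num, h⟩)
        have hjd' : 18 * 5 ∣ m * j := hjd
        simp only [List.mem_cons, List.not_mem_nil, or_false] at hj
        norm_num only at hjd'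
        rcases hj with rfl | rfl | rfl | rfl | rfl | rfl | rfl <;> simp only [hjd', true_or, or_true]
      clear hx hy hxd hyd h2' hch hY
      interval_cases m <;> first | omega | exact Or.inl ⟨rfl, q, rfl⟩ | exact Or.inr (Or.inl ⟨rfl, q, rfl⟩) | exact Or.inr (Or.inr (Or.inl ⟨rfl, q, rfl⟩)) | exact Or.inr (Or.inr (Or.inr (⟨rfl, q, rfl⟩)))
    case psp m q =>
      obtain ⟨hm, -, -⟩ := hg
      have hb := bd_psp (ρ := 7) (by omega) h2'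
      have hx' : 1 ≤ x ∧ x ≤ 2 * m ∧ 2 ∣ x := hx
      have hy' : 1 ≤ y ∧ y ≤ 2 * m ∧ 2 ∣ y := hy
      have hxd' : 5 * (2 * m) ∣ 18 * x := hxd
      have hyd' : 18 * (2 * m) ∣ 18 * y := hyd
      have hY10 : 10 ≤ 2 * m → 180 ∣ (2 * m) * 2 ∨ 180 ∣ (2 * m) * 6 ∨ 180 ∣ (2 * m) * 8 ∨ 180 ∣ (2 * m) * 10 ∨ 180 ∣ (2 * m) * 12 ∨ 180 ∣ (2 * m) * 14 ∨ 180 ∣ (2 * m) * 18 := by
        intro h
        obtain ⟨j, hj, hjd⟩ := hY 10 (by norm_num) (show 1 ≤ 10 ∧ 10 ≤ 2 * m ∧ 2 ∣ 10 from ⟨by norm_num, h, by norm_num⟩)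
        have hjd' : 18 * 10 ∣ (2 * m) * j := hjd
        simp only [List.mem_cons, List.not_mem_nil, or_false] at hj
        norm_num only at hjd'
        rcases hj with rfl | rfl | rfl | rfl | rfl | rfl | rfl <;> simp only [hjd', true_or, or_true]
      clear hx hy hxd hyd h2' hch hY
      interval_cases m <;> first | omega | exact Or.inl ⟨rfl, q, rfl⟩ | exact Or.inr (Or.inl ⟨rfl, q, rfl⟩) | exact Or.inr (Or.inr (Or.inl ⟨rfl, q, rfl⟩)) | exact Or.inr (Or.inr (Or.inr (⟨rfl, q, rfl⟩)))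
    case oodd m q =>
      obtain ⟨hm, -, -⟩ := hg
      have hb := bd_psp (ρ := 7) (by omega) h2'
      have hx' : 1 ≤ x ∧ x ≤ 2 * m ∧ 2 ∣ x := hx
      have hy' : 1 ≤ y ∧ y ≤ 2 * m ∧ 2 ∣ y := hy
      have hxd' : 5 * (2 * m) ∣ 18 * x := hxd
      have hyd' : 18 * (2 * m) ∣ 18 * y := hyd
      have hY10 : 10 ≤ 2 * m → 180 ∣ (2 * m) * 2 ∨ 180 ∣ (2 * m) * 6 ∨ 180 ∣ (2 * m) * 8 ∨ 180 ∣ (2 * m) * 10 ∨ 180 ∣ (2 * m) * 12 ∨ 180 ∣ (2 * m) * 14 ∨ 180 ∣ (2 * m) * 18 := by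
        intro h
        obtain ⟨j, hj, hjd⟩ := hY 10 (by norm_num) (show 1 ≤ 10 ∧ 10 ≤ 2 * m ∧ 2 ∣ 10 from ⟨by norm_num, h, by norm_num⟩)
        have hjd' : 18 * 10 ∣ (2 * m) * j := hjd
        simp only [List.mem_cons, List.not_mem_nil, or_false] at hj
        norm_num only at hjd'
        rcases hj with rfl | rfl | rfl | rfl | rfl | rfl | rfl <;> simp only [hjd', true_or, or_true]
      clear hx hy hxd hyd h2' hch hY
      interval_cases m <;> first | omega | exact Or.inl ⟨rfl, q, rfl⟩ | exact Or.inr (Or.inl ⟨rfl, q, rfl⟩) | exact Or.inr (Or.inr (Or.inl ⟨rfl, q, rfl⟩)) | exact Or.inr (Or.inr (Or.inr (⟨rfl, q, rfl⟩)))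
    case psu m q =>
      obtain ⟨hm, -, -⟩ := hg
      have hb := bd_psu (ρ := 7) hm h2'
      have hx' : (1 ≤ x ∧ x ≤ m ∧ 2 ∣ x) ∨ ∃ j, x = 2 * j ∧ j ≤ m ∧ j % 2 = 1 := hx
      have hy' : (1 ≤ y ∧ y ≤ m ∧ 2 ∣ y) ∨ ∃ j, y = 2 * j ∧ j ≤ m ∧ j % 2 = 1 := hy
      obtain ⟨k, hk⟩ : ∃ k, k = (if m % 2 = 0 then m - 1 else m) := ⟨_, rfl⟩
      have hk' : (m % 2 = 0 ∧ k = m - 1) ∨ (m % 2 = 1 ∧ k = m) := by
        rw [hk]
        split_ifs <;> omega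
      have hM : Mg (.psu m q) = 2 * k := by rw [hk]; rfl
      have hxd' : 5 * (2 * k) ∣ 18 * x := hM ▸ hxd
      have hyd' : 18 * (2 * k) ∣ 18 * y := hM ▸ hyd
      clear hx hy hxd hyd h2' hch hY hM hk
      rcases hk' with ⟨hk1, hk2⟩ | ⟨hk1, hk2⟩ <;> rcases hx' with hx' | ⟨j, rfl, hx'⟩ <;>
        rcases hy' with hy' | ⟨l, rfl, hy'⟩ <;> interval_cases m <;> subst hk2 <;> first | omega | exact Or.inl ⟨rfl, q, rfl⟩ | exact Or.inr (Or.inl ⟨rfl, q, rfl⟩) | exact Or.inr (Or.inr (Or.inl ⟨rfl, q, rfl⟩)) | exact Or.inr (Or.inr (Or.inr (⟨rfl, q, rfl⟩)))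
    case oplus m q =>
      obtain ⟨hm, -⟩ := hg
      have hb := bd_oplus (ρ := 7) (by omega) h2'
      have hx' : 1 ≤ x ∧ x ≤ 2 * (m - 1) ∧ (2 ∣ x ∨ x = m) := hx
      have hy' : 1 ≤ y ∧ y ≤ 2 * (m - 1) ∧ (2 ∣ y ∨ y = m) := hy
      have hxd' : 5 * (2 * (m - 1)) ∣ 18 * x := hxd
      have hyd' : 18 * (2 * (m - 1)) ∣ 18 * y := hyd
      have hY10 : 10 ≤ 2 * (m - 1) → 180 ∣ (2 * (m - 1)) * 2 ∨ 180 ∣ (2 * (m - 1)) * 6 ∨ 180 ∣ (2 * (m - 1)) * 8 ∨ 180 ∣ (2 * (m - 1)) * 10 ∨ 180 ∣ (2 * (m - 1)) * 12 ∨ 180 ∣ (2 * (m - 1)) * 14 ∨ 180 ∣ (2 * (m - 1)) * 18 := by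
        intro h
        obtain ⟨j, hj, hjd⟩ := hY 10 (by norm_num) (show 4 ≤ 10 ∧ 10 ≤ 2 * (m - 1) ∧ 2 ∣ 10 from ⟨by norm_num, h, by norm_num⟩)
        have hjd' : 18 * 10 ∣ (2 * (m - 1)) * j := hjd
        simp only [List.mem_cons, List.not_mem_nil, or_false] at hj
        norm_num only at hjd'
        rcases hj with rfl | rfl | rfl | rfl | rfl | rfl | rfl <;> simp only [hjd', true_or, or_true]
      clear hx hy hxd hyd h2' hch hY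
      interval_cases m <;> first | omega | exact Or.inl ⟨rfl, q, rfl⟩ | exact Or.inr (Or.inl ⟨rfl, q, rfl⟩) | exact Or.inr (Or.inr (Or.inl ⟨rfl, q, rfl⟩)) | exact Or.inr (Or.inr (Or.inr (⟨rfl, q, rfl⟩)))
    case ominus m q =>
      obtain ⟨hm, -⟩ := hg
      have hb := bd_ominus (ρ := 7) (by omega) h2'
      have hx' : 1 ≤ x ∧ x ≤ 2 * m ∧ 2 ∣ x := hx
      have hy' : 1 ≤ y ∧ y ≤ 2 * m ∧ 2 ∣ y := hy
      have hxd' : 5 * (2 * m) ∣ 18 * x := hxd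
      have hyd' : 18 * (2 * m) ∣ 18 * y := hyd
      have hY10 : 10 ≤ 2 * m → 180 ∣ (2 * m) * 2 ∨ 180 ∣ (2 * m) * 6 ∨ 180 ∣ (2 * m) * 8 ∨ 180 ∣ (2 * m) * 10 ∨ 180 ∣ (2 * m) * 12 ∨ 180 ∣ (2 * m) * 14 ∨ 180 ∣ (2 * m) * 18 := by
        intro h
        obtain ⟨j, hj, hjd⟩ := hY 10 (by norm_num) (show 4 ≤ 10 ∧ 10 ≤ 2 * m ∧ 2 ∣ 10 from ⟨by norm_num, h, by norm_num⟩)
        have hjd' : 18 * 10 ∣ (2 * m) * j := hjd
        simp only [List.mem_cons, List.not_mem_nil, or_false] at hj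
        norm_num only at hjd'
        rcases hj with rfl | rfl | rfl | rfl | rfl | rfl | rfl <;> simp only [hjd', true_or, or_true]
      clear hx hy hxd hyd h2' hch hY
      interval_cases m <;> first | omega | exact Or.inl ⟨rfl, q, rfl⟩ | exact Or.inr (Or.inl ⟨rfl, q, rfl⟩) | exact Or.inr (Or.inr (Or.inl ⟨rfl, q, rfl⟩)) | exact Or.inr (Or.inr (Or.inr (⟨rfl, q, rfl⟩)))
    case g2 q =>
      have hx' : x ∈ [2, 6] := hx
      have hy' : y ∈ [2, 6] := hy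
      have hxd' : 5 * 6 ∣ 18 * x := hxd
      have hyd' : 18 * 6 ∣ 18 * y := hyd
      have h4 : 2 * 6 ≤ 7 * 6 := h2'
      simp only [List.mem_cons, List.not_mem_nil, or_false] at hx' hy'
      clear hx hy hxd hyd h2' hch hY
      first | omega | exact Or.inl ⟨rfl, q, rfl⟩ | exact Or.inr (Or.inl ⟨rfl, q, rfl⟩) | exact Or.inr (Or.inr (Or.inl ⟨rfl, q, rfl⟩)) | exact Or.inr (Or.inr (Or.inr (⟨rfl, q, rfl⟩)))
    case f4 q =>
      have hx' : x ∈ [2, 6, 8, 12] := hx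
      have hy' : y ∈ [2, 6, 8, 12] := hy
      have hxd' : 5 * 12 ∣ 18 * x := hxd
      have hyd' : 18 * 12 ∣ 18 * y := hyd
      have h4 : 2 * 24 ≤ 7 * 12 := h2'
      simp only [List.mem_cons, List.not_mem_nil, or_false] at hx' hy'
      clear hx hy hxd hyd h2' hch hY
      first | omega | exact Or.inl ⟨rfl, q, rfl⟩ | exact Or.inr (Or.inl ⟨rfl, q, rfl⟩) | exact Or.inr (Or.inr (Or.inl ⟨rfl, q, rfl⟩)) | exact Or.inr (Or.inr (Or.inr (⟨rfl, q, rfl⟩)))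
    case e6 q =>
      have hx' : x ∈ [2, 5, 6, 8, 9, 12] := hx
      have hy' : y ∈ [2, 5, 6, 8, 9, 12] := hy
      have hxd' : 5 * 12 ∣ 18 * x := hxd
      have hyd' : 18 * 12 ∣ 18 * y := hyd
      have h4 : 2 * 36 ≤ 7 * 12 := h2'
      simp only [List.mem_cons, List.not_mem_nil, or_false] at hx' hy'
      clear hx hy hxd hyd h2' hch hY
      first | omega | exact Or.inl ⟨rfl, q, rfl⟩ | exact Or.inr (Or.inl ⟨rfl, q, rfl⟩) | exact Or.inr (Or.inr (Or.inl ⟨rfl, q, rfl⟩)) | exact Or.inr (Or.inr (Or.inr (⟨rfl, q, rfl⟩)))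
    case e7 q =>
      have hx' : x ∈ [2, 6, 8, 10, 12, 14, 18] := hx
      have hy' : y ∈ [2, 6, 8, 10, 12, 14, 18] := hy
      have hxd' : 5 * 18 ∣ 18 * x := hxd
      have hyd' : 18 * 18 ∣ 18 * y := hyd
      have h4 : 2 * 63 ≤ 7 * 18 := h2'
      simp only [List.mem_cons, List.not_mem_nil, or_false] at hx' hy'
      clear hx hy hxd hyd h2' hch hY
      first | omega | exact Or.inl ⟨rfl, q, rfl⟩ | exact Or.inr (Or.inl ⟨rfl, q, rfl⟩) | exact Or.inr (Or.inr (Or.inl ⟨rfl, q, rfl⟩)) | exact Or.inr (Or.inr (Or.inr (⟨rfl, q, rfl⟩)))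
    case e8 q =>
      have hx' : x ∈ [2, 8, 12, 14, 18, 20, 24, 30] := hx
      have hy' : y ∈ [2, 8, 12, 14, 18, 20, 24, 30] := hy
      have hxd' : 5 * 30 ∣ 18 * x := hxd
      have hyd' : 18 * 30 ∣ 18 * y := hyd
      have h4 : 2 * 120 ≤ 7 * 30 := h2'
      simp only [List.mem_cons, List.not_mem_nil, or_false] at hx' hy'
      clear hx hy hxd hyd h2' hch hY
      first | omega | exact Or.inl ⟨rfl, q, rfl⟩ | exact Or.inr (Or.inl ⟨rfl, q, rfl⟩) | exact Or.inr (Or.inr (Or.inl ⟨rfl, q, rfl⟩)) | exact Or.inr (Or.inr (Or.inr (⟨rfl, q, rfl⟩)))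
    case te6 q =>
      have hx' : x ∈ [2, 10, 6, 8, 18, 12] := hx
      have hy' : y ∈ [2, 10, 6, 8, 18, 12] := hy
      have hxd' : 5 * 18 ∣ 18 * x := hxd
      have hyd' : 18 * 18 ∣ 18 * y := hyd
      have h4 : 2 * 36 ≤ 7 * 18 := h2'
      simp only [List.mem_cons, List.not_mem_nil, or_false] at hx' hy'
      clear hx hy hxd hyd h2' hch hY
      first | omega | exact Or.inl ⟨rfl, q, rfl⟩ | exact Or.inr (Or.inl ⟨rfl, q, rfl⟩) | exact Or.inr (Or.inr (Or.inl ⟨rfl, q, rfl⟩)) | exact Or.inr (Or.inr (Or.inr (⟨rfl, q, rfl⟩)))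
    case td4 q =>
      have hx' : x ∈ [2, 6, 12] := hx
      have hy' : y ∈ [2, 6, 12] := hy
      have hxd' : 5 * 12 ∣ 18 * x := hxd
      have hyd' : 18 * 12 ∣ 18 * y := hyd
      have h4 : 2 * 12 ≤ 7 * 12 := h2'
      simp only [List.mem_cons, List.not_mem_nil, or_false] at hx' hy'
      clear hx hy hxd hyd h2' hch hY
      first | omega | exact Or.inl ⟨rfl, q, rfl⟩ | exact Or.inr (Or.inl ⟨rfl, q, rfl⟩) | exact Or.inr (Or.inr (Or.inl ⟨rfl, q, rfl⟩)) | exact Or.inr (Or.inr (Or.inr (⟨rfl, q, rfl⟩)))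
    case sz q =>
      have hx' : x ∈ [1, 4] := hx
      have hy' : y ∈ [1, 4] := hy
      have hxd' : 5 * 4 ∣ 18 * x := hxd
      have hyd' : 18 * 4 ∣ 18 * y := hyd
      have h4 : 2 * 2 ≤ 7 * 4 := h2'
      simp only [List.mem_cons, List.not_mem_nil, or_false] at hx' hy'
      clear hx hy hxd hyd h2' hch hY
      first | omega | exact Or.inl ⟨rfl, q, rfl⟩ | exact Or.inr (Or.inl ⟨rfl, q, rfl⟩) | exact Or.inr (Or.inr (Or.inl ⟨rfl, q, rfl⟩)) | exact Or.inr (Or.inr (Or.inr (⟨rfl, q, rfl⟩)))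
    case ree q =>
      have hx' : x ∈ [1, 6] := hx
      have hy' : y ∈ [1, 6] := hy
      have hxd' : 5 * 6 ∣ 18 * x := hxd
      have hyd' : 18 * 6 ∣ 18 * y := hyd
      have h4 : 2 * 3 ≤ 7 * 6 := h2'
      simp only [List.mem_cons, List.not_mem_nil, or_false] at hx' hy'
      clear hx hy hxd hyd h2' hch hY
      first | omega | exact Or.inl ⟨rfl, q, rfl⟩ | exact Or.inr (Or.inl ⟨rfl, q, rfl⟩) | exact Or.inr (Or.inr (Or.inl ⟨rfl, q, rfl⟩)) | exact Or.inr (Or.inr (Or.inr (⟨rfl, q, rfl⟩)))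
    case tf4 q =>
      have hx' : x ∈ [1, 6, 4, 12] := hx
      have hy' : y ∈ [1, 6, 4, 12] := hy
      have hxd' : 5 * 12 ∣ 18 * x := hxd
      have hyd' : 18 * 12 ∣ 18 * y := hyd
      have h4 : 2 * 12 ≤ 7 * 12 := h2'
      simp only [List.mem_cons, List.not_mem_nil, or_false] at hx' hy'
      clear hx hy hxd hyd h2' hch hY
      first | omega | exact Or.inl ⟨rfl, q, rfl⟩ | exact Or.inr (Or.inl ⟨rfl, q, rfl⟩) | exact Or.inr (Or.inr (Or.inl ⟨rfl, q, rfl⟩)) | exact Or.inr (Or.inr (Or.inr (⟨rfl, q, rfl⟩)))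
    all_goals exact absurd hch not_false

theorem elimP_e7_5_14 (hg : Cond g) (hch : HasChar p g) {i : ℕ} (hi : i ∈ [2, 6, 8, 10, 12, 14, 18]) (hei : 14 ≤ i)
    (h2 : ag g * i ≤ 63 * Mg g) (h1 : ∃ x, Xg g x ∧ 5 * Mg g ∣ i * x) (h3 : ∃ x, Xg g x ∧ 14 * Mg g ∣ i * x)
    (hY : ∀ k, (k = 4 ∨ k = 5 ∨ 7 ≤ k) → Yg g k → ∃ j, j ∈ [2, 6, 8, 10, 12, 14, 18] ∧ i * k ∣ Mg g * j) :
    (i = 14 ∧ ∃ q, g = .psl 7 q) ∨ (i = 14 ∧ ∃ q, g = .psp 7 q) ∨ (i = 14 ∧ ∃ q, g = .oodd 7 q) ∨ (i = 14 ∧ ∃ q, g = .psu 7 q) ∨ (i = 14 ∧ ∃ q, g = .psu 8 q) ∨ (i = 14 ∧ ∃ q, g = .oplus 8 q) ∨ (i = 14 ∧ ∃ q, g = .ominus 7 q) ∨ (i = 18 ∧ ∃ q, g = .psu 9 q) ∨ (i = 18 ∧ ∃ q, g = .psu 10 q) ∨ (i = 18 ∧ ∃ q, g = .e7 q) := by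
  obtain ⟨x, hx, hxd⟩ := h1
  obtain ⟨y, hy, hyd⟩ := h3
  have hi2 : i = 14 ∨ i = 18 := by
    simp only [List.mem_cons, List.not_mem_nil, or_false] at hi
    omega
  clear hi hei
  rcases hi2 with rfl | rfl
  · have h2' : 2 * ag g ≤ 9 * Mg g := by omega
    clear h2
    cases g
    case psl m q =>
      obtain ⟨hm, -, -⟩ := hg
      have hb := bd_psl (ρ := 9) (by omega) h2'
      have hx' : 1 ≤ x ∧ x ≤ m := hx
      have hy' : 1 ≤ y ∧ y ≤ m := hy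
      have hxd' : 5 * m ∣ 14 * x := hxd
      have hyd' : 14 * m ∣ 14 * y := hyd
      clear hx hy hxd hyd h2' hch hY
      interval_cases m <;> first | omega | exact Or.inl ⟨rfl, q, rfl⟩ | exact Or.inr (Or.inl ⟨rfl, q, rfl⟩) | exact Or.inr (Or.inr (Or.inl ⟨rfl, q, rfl⟩)) | exact Or.inr (Or.inr (Or.inr (Or.inl ⟨rfl, q, rfl⟩))) | exact Or.inr (Or.inr (Or.inr (Or.inr (Or.inl ⟨rfl, q, rfl⟩)))) | exact Or.inr (Or.inr (Or.inr (Or.inr (Or.inr (Or.inl ⟨rfl, q, rfl⟩))))) | exact Or.inr (Or.inr (Or.inr (Or.inr (Or.inr (Or.inr (Or.inl ⟨rfl, q, rfl⟩)))))) | exact Or.inr (Or.inr (Or.inr (Or.inr (Or.inr (Or.inr (Or.inr (Or.inl ⟨rfl, q, rfl⟩))))))) | exact Or.inr (Or.inr (Or.inr (Or.inr (Or.inr (Or.inr (Or.inr (Or.inr (Or.inl ⟨rfl, q, rfl⟩)))))))) | exact Or.inr (Or.inr (Or.inr (Or.inr (Or.inr (Or.inr (Or.inr (Or.inr (Or.inr (⟨rfl, q, rfl⟩)))))))))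
    case psp m q =>
      obtain ⟨hm, -, -⟩ := hg
      have hb := bd_psp (ρ := 9) (by omega) h2'
      have hx' : 1 ≤ x ∧ x ≤ 2 * m ∧ 2 ∣ x := hx
      have hy' : 1 ≤ y ∧ y ≤ 2 * m ∧ 2 ∣ y := hy
      have hxd' : 5 * (2 * m) ∣ 14 * x := hxd
      have hyd' : 14 * (2 * m) ∣ 14 * y := hyd
      clear hx hy hxd hyd h2' hch hY
      interval_cases m <;> first | omega | exact Or.inl ⟨rfl, q, rfl⟩ | exact Or.inr (Or.inl ⟨rfl, q, rfl⟩) | exact Or.inr (Or.inr (Or.inl ⟨rfl, q, rfl⟩)) | exact Or.inr (Or.inr (Or.inr (Or.inl ⟨rfl, q, rfl⟩))) | exact Or.inr (Or.inr (Or.inr (Or.inr (Or.inl ⟨rfl, q, rfl⟩)))) | exact Or.inr (Or.inr (Or.inr (Or.inr (Or.inr (Or.inl ⟨rfl, q, rfl⟩))))) | exact Or.inr (Or.inr (Or.inr (Or.inr (Or.inr (Or.inr (Or.inl ⟨rfl, q, rfl⟩)))))) | exact Or.inr (Or.inr (Or.inr (Or.inr (Or.inr (Or.inr (Or.inr (Or.inl ⟨rfl, q, rfl⟩))))))) | exact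 Or.inr (Or.inr (Or.inr (Or.inr (Or.inr (Or.inr (Or.inr (Or.inr (Or.inl ⟨rfl, q, rfl⟩)))))))) | exact Or.inr (Or.inr (Or.inr (Or.inr (Or.inr (Or.inr (Or.inr (Or.inr (Or.inr (⟨rfl, q, rfl⟩)))))))))
    case oodd m q =>
      obtain ⟨hm, -, -⟩ := hg
      have hb := bd_psp (ρ := 9) (by omega) h2'
      have hx' : 1 ≤ x ∧ x ≤ 2 * m ∧ 2 ∣ x := hx
      have hy' : 1 ≤ y ∧ y ≤ 2 * m ∧ 2 ∣ y := hy
      have hxd' : 5 * (2 * m) ∣ 14 * x := hxd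
      have hyd' : 14 * (2 * m) ∣ 14 * y := hyd
      clear hx hy hxd hyd h2' hch hY
      interval_cases m <;> first | omega | exact Or.inl ⟨rfl, q, rfl⟩ | exact Or.inr (Or.inl ⟨rfl, q, rfl⟩) | exact Or.inr (Or.inr (Or.inl ⟨rfl, q, rfl⟩)) | exact Or.inr (Or.inr (Or.inr (Or.inl ⟨rfl, q, rfl⟩))) | exact Or.inr (Or.inr (Or.inr (Or.inr (Or.inl ⟨rfl, q, rfl⟩)))) | exact Or.inr (Or.inr (Or.inr (Or.inr (Or.inr (Or.inl ⟨rfl, q, rfl⟩))))) | exact Or.inr (Or.inr (Or.inr (Or.inr (Or.inr (Or.inr (Or.inl ⟨rfl, q, rfl⟩)))))) | exact Or.inr (Or.inr (Or.inr (Or.inr (Or.inr (Or.inr (Or.inr (Or.inl ⟨rfl, q, rfl⟩))))))) | exact Or.inr (Or.inr (Or.inr (Or.inr (Or.inr (Or.inr (Or.inr (Or.inr (Or.inl ⟨rfl, q, rfl⟩)))))))) | exact Or.inr (Or.inr (Or.inr (Or.inr (Or.inr (Or.inr (Or.inr (Or.inr (Or.inr (⟨rfl, q, rfl⟩)))))))))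
    case psu m q =>
      obtain ⟨hm, -, -⟩ := hg
      have hb := bd_psu (ρ := 9) hm h2'
      have hx' : (1 ≤ x ∧ x ≤ m ∧ 2 ∣ x) ∨ ∃ j, x = 2 * j ∧ j ≤ m ∧ j % 2 = 1 := hx
      have hy' : (1 ≤ y ∧ y ≤ m ∧ 2 ∣ y) ∨ ∃ j, y = 2 * j ∧ j ≤ m ∧ j % 2 = 1 := hy
      obtain ⟨k, hk⟩ : ∃ k, k = (if m % 2 = 0 then m - 1 else m) := ⟨_, rfl⟩
      have hk' : (m % 2 = 0 ∧ k = m - 1) ∨ (m % 2 = 1 ∧ k = m) := by
        rw [hk]
        split_ifs <;> omega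
      have hM : Mg (.psu m q) = 2 * k := by rw [hk]; rfl
      have hxd' : 5 * (2 * k) ∣ 14 * x := hM ▸ hxd
      have hyd' : 14 * (2 * k) ∣ 14 * y := hM ▸ hyd
      clear hx hy hxd hyd h2' hch hY hM hk
      rcases hk' with ⟨hk1, hk2⟩ | ⟨hk1, hk2⟩ <;> rcases hx' with hx' | ⟨j, rfl, hx'⟩ <;>
        rcases hy' with hy' | ⟨l, rfl, hy'⟩ <;> interval_cases m <;> subst hk2 <;> first | omega | exact Or.inl ⟨rfl, q, rfl⟩ | exact Or.inr (Or.inl ⟨rfl, q, rfl⟩) | exact Or.inr (Or.inr (Or.inl ⟨rfl, q, rfl⟩)) | exact Or.inr (Or.inr (Or.inr (Or.inl ⟨rfl, q, rfl⟩))) | exact Or.inr (Or.inr (Or.inr (Or.inr (Or.inl ⟨rfl, q, rfl⟩)))) | exact Or.inr (Or.inr (Or.inr (Or.inr (Or.inr (Or.inl ⟨rfl, q, rfl⟩))))) | exact Or.inr (Or.inr (Or.inr (Or.inr (Or.inr (Or.inr (Or.inl ⟨rfl, q, rfl⟩)))))) | exact Or.inr (Or.inr (Or.inr (Or.inr (Or.inr (Or.inr (Or.inr (Or.inl ⟨rfl,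 q, rfl⟩))))))) | exact Or.inr (Or.inr (Or.inr (Or.inr (Or.inr (Or.inr (Or.inr (Or.inr (Or.inl ⟨rfl, q, rfl⟩)))))))) | exact Or.inr (Or.inr (Or.inr (Or.inr (Or.inr (Or.inr (Or.inr (Or.inr (Or.inr (⟨rfl, q, rfl⟩)))))))))
    case oplus m q =>
      obtain ⟨hm, -⟩ := hg
      have hb := bd_oplus (ρ := 9) (by omega) h2'
      have hx' : 1 ≤ x ∧ x ≤ 2 * (m - 1) ∧ (2 ∣ x ∨ x = m) := hx
      have hy' : 1 ≤ y ∧ y ≤ 2 * (m - 1) ∧ (2 ∣ y ∨ y = m) := hy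
      have hxd' : 5 * (2 * (m - 1)) ∣ 14 * x := hxd
      have hyd' : 14 * (2 * (m - 1)) ∣ 14 * y := hyd
      clear hx hy hxd hyd h2' hch hY
      interval_cases m <;> first | omega | exact Or.inl ⟨rfl, q, rfl⟩ | exact Or.inr (Or.inl ⟨rfl, q, rfl⟩) | exact Or.inr (Or.inr (Or.inl ⟨rfl, q, rfl⟩)) | exact Or.inr (Or.inr (Or.inr (Or.inl ⟨rfl, q, rfl⟩))) | exact Or.inr (Or.inr (Or.inr (Or.inr (Or.inl ⟨rfl, q, rfl⟩)))) | exact Or.inr (Or.inr (Or.inr (Or.inr (Or.inr (Or.inl ⟨rfl, q, rfl⟩))))) | exact Or.inr (Or.inr (Or.inr (Or.inr (Or.inr (Or.inr (Or.inl ⟨rfl, q, rfl⟩)))))) | exact Or.inr (Or.inr (Or.inr (Or.inr (Or.inr (Or.inr (Or.inr (Or.inl ⟨rfl, q, rfl⟩))))))) | exact Or.inr (Or.inr (Or.inr (Or.inr (Or.inr (Or.inr (Or.inr (Or.inr (Or.inl ⟨rfl, q, rfl⟩)))))))) | exact Or.inr (Or.inr (Or.inr (Or.inr (Or.inr (Or.inr (Or.inr (Or.inr (Or.inr (⟨rfl,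 q, rfl⟩)))))))))
    case ominus m q =>
      obtain ⟨hm, -⟩ := hg
      have hb := bd_ominus (ρ := 9) (by omega) h2'
      have hx' : 1 ≤ x ∧ x ≤ 2 * m ∧ 2 ∣ x := hx
      have hy' : 1 ≤ y ∧ y ≤ 2 * m ∧ 2 ∣ y := hy
      have hxd' : 5 * (2 * m) ∣ 14 * x := hxd
      have hyd' : 14 * (2 * m) ∣ 14 * y := hyd
      clear hx hy hxd hyd h2' hch hY
      interval_cases m <;> first | omega | exact Or.inl ⟨rfl, q, rfl⟩ | exact Or.inr (Or.inl ⟨rfl, q, rfl⟩) | exact Or.inr (Or.inr (Or.inl ⟨rfl, q, rfl⟩)) | exact Or.inr (Or.inr (Or.inr (Or.inl ⟨rfl, q, rfl⟩))) | exact Or.inr (Or.inr (Or.inr (Or.inr (Or.inl ⟨rfl, q, rfl⟩)))) | exact Or.inr (Or.inr (Or.inr (Or.inr (Or.inr (Or.inl ⟨rfl, q, rfl⟩))))) | exact Or.inr (Or.inr (Or.inr (Or.inr (Or.inr (Or.inr (Or.inl ⟨rfl, q, rfl⟩)))))) | exact Or.inr (Or.inr (Or.inr (Or.inr (Or.inr (Or.inr (Or.inr (Or.inl ⟨rfl,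 q, rfl⟩))))))) | exact Or.inr (Or.inr (Or.inr (Or.inr (Or.inr (Or.inr (Or.inr (Or.inr (Or.inl ⟨rfl, q, rfl⟩)))))))) | exact Or.inr (Or.inr (Or.inr (Or.inr (Or.inr (Or.inr (Or.inr (Or.inr (Or.inr (⟨rfl, q, rfl⟩)))))))))
    case g2 q =>
      have hx' : x ∈ [2, 6] := hx
      have hy' : y ∈ [2, 6] := hy
      have hxd' : 5 * 6 ∣ 14 * x := hxd
      have hyd' : 14 * 6 ∣ 14 * y := hyd
      have h4 : 2 * 6 ≤ 9 * 6 := h2'
      simp only [List.mem_cons, List.not_mem_nil, or_false] at hx' hy'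
      clear hx hy hxd hyd h2' hch hY
      first | omega | exact Or.inl ⟨rfl, q, rfl⟩ | exact Or.inr (Or.inl ⟨rfl, q, rfl⟩) | exact Or.inr (Or.inr (Or.inl ⟨rfl, q, rfl⟩)) | exact Or.inr (Or.inr (Or.inr (Or.inl ⟨rfl, q, rfl⟩))) | exact Or.inr (Or.inr (Or.inr (Or.inr (Or.inl ⟨rfl, q, rfl⟩)))) | exact Or.inr (Or.inr (Or.inr (Or.inr (Or.inr (Or.inl ⟨rfl, q, rfl⟩))))) | exact Or.inr (Or.inr (Or.inr (Or.inr (Or.inr (Or.inr (Or.inl ⟨rfl, q, rfl⟩)))))) | exact Or.inr (Or.inr (Or.inr (Or.inr (Or.inr (Or.inr (Or.inr (Or.inl ⟨rfl, q, rfl⟩))))))) | exact Or.inr (Or.inr (Or.inr (Or.inr (Or.inr (Or.inr (Or.inr (Or.inr (Or.inl ⟨rfl, q, rfl⟩)))))))) | exact Or.inr (Or.inr (Or.inr (Or.inr (Or.inr (Or.inr (Or.inr (Or.inr (Or.inr (⟨rfl, q, rfl⟩)))))))))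
    case f4 q =>
      have hx' : x ∈ [2, 6, 8, 12] := hx
      have hy' : y ∈ [2, 6, 8, 12] := hy
      have hxd' : 5 * 12 ∣ 14 * x := hxd
      have hyd' : 14 * 12 ∣ 14 * y := hyd
      have h4 : 2 * 24 ≤ 9 * 12 := h2'
      simp only [List.mem_cons, List.not_mem_nil, or_false] at hx' hy'
      clear hx hy hxd hyd h2' hch hY
      first | omega | exact Or.inl ⟨rfl, q, rfl⟩ | exact Or.inr (Or.inl ⟨rfl, q, rfl⟩) | exact Or.inr (Or.inr (Or.inl ⟨rfl, q, rfl⟩)) | exact Or.inr (Or.inr (Or.inr (Or.inl ⟨rfl, q, rfl⟩))) | exact Or.inr (Or.inr (Or.inr (Or.inr (Or.inl ⟨rfl, q, rfl⟩)))) | exact Or.inr (Or.inr (Or.inr (Or.inr (Or.inr (Or.inl ⟨rfl, q, rfl⟩))))) | exact Or.inr (Or.inr (Or.inr (Or.inr (Or.inr (Or.inr (Or.inl ⟨rfl, q, rfl⟩)))))) | exact Or.inr (Or.inr (Or.inr (Or.inr (Or.inr (Or.inr (Or.inr (Or.inl ⟨rfl, q, rfl⟩))))))) | exact Or.inr (Or.inr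 (Or.inr (Or.inr (Or.inr (Or.inr (Or.inr (Or.inr (Or.inl ⟨rfl, q, rfl⟩)))))))) | exact Or.inr (Or.inr (Or.inr (Or.inr (Or.inr (Or.inr (Or.inr (Or.inr (Or.inr (⟨rfl, q, rfl⟩)))))))))
    case e6 q =>
      have hx' : x ∈ [2, 5, 6, 8, 9, 12] := hx
      have hy' : y ∈ [2, 5, 6, 8, 9, 12] := hy
      have hxd' : 5 * 12 ∣ 14 * x := hxd
      have hyd' : 14 * 12 ∣ 14 * y := hyd
      have h4 : 2 * 36 ≤ 9 * 12 := h2'
      simp only [List.mem_cons, List.not_mem_nil, or_false] at hx' hy'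
      clear hx hy hxd hyd h2' hch hY
      first | omega | exact Or.inl ⟨rfl, q, rfl⟩ | exact Or.inr (Or.inl ⟨rfl, q, rfl⟩) | exact Or.inr (Or.inr (Or.inl ⟨rfl, q, rfl⟩)) | exact Or.inr (Or.inr (Or.inr (Or.inl ⟨rfl, q, rfl⟩))) | exact Or.inr (Or.inr (Or.inr (Or.inr (Or.inl ⟨rfl, q, rfl⟩)))) | exact Or.inr (Or.inr (Or.inr (Or.inr (Or.inr (Or.inl ⟨rfl, q, rfl⟩))))) | exact Or.inr (Or.inr (Or.inr (Or.inr (Or.inr (Or.inr (Or.inl ⟨rfl, q, rfl⟩)))))) | exact Or.inr (Or.inr (Or.inr (Or.inr (Or.inr (Or.inr (Or.inr (Or.inl ⟨rfl, q, rfl⟩))))))) | exact Or.inr (Or.inr (Or.inr (Or.inr (Or.inr (Or.inr (Or.inr (Or.inr (Or.inl ⟨rfl, q, rfl⟩)))))))) | exact Or.inr (Or.inr (Or.inr (Or.inr (Or.inr (Or.inr (Or.inr (Or.inr (Or.inr (⟨rfl, q, rfl⟩)))))))))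
    case e7 q =>
      have hx' : x ∈ [2, 6, 8, 10, 12, 14, 18] := hx
      have hy' : y ∈ [2, 6, 8, 10, 12, 14, 18] := hy
      have hxd' : 5 * 18 ∣ 14 * x := hxd
      have hyd' : 14 * 18 ∣ 14 * y := hyd
      have h4 : 2 * 63 ≤ 9 * 18 := h2'
      simp only [List.mem_cons, List.not_mem_nil, or_false] at hx' hy'
      clear hx hy hxd hyd h2' hch hY
      first | omega | exact Or.inl ⟨rfl, q, rfl⟩ | exact Or.inr (Or.inl ⟨rfl, q, rfl⟩) | exact Or.inr (Or.inr (Or.inl ⟨rfl, q, rfl⟩)) | exact Or.inr (Or.inr (Or.inr (Or.inl ⟨rfl, q, rfl⟩))) | exact Or.inr (Or.inr (Or.inr (Or.inr (Or.inl ⟨rfl, q, rfl⟩)))) | exact Or.inr (Or.inr (Or.inr (Or.inr (Or.inr (Or.inl ⟨rfl, q, rfl⟩))))) | exact Or.inr (Or.inr (Or.inr (Or.inr (Or.inr (Or.inr (Or.inl ⟨rfl, q, rfl⟩)))))) | exact Or.inr (Or.inr (Or.inr (Or.inr (Or.inr (Or.inr (Or.inr (Or.inl ⟨rfl, q, rfl⟩)))))))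 | exact Or.inr (Or.inr (Or.inr (Or.inr (Or.inr (Or.inr (Or.inr (Or.inr (Or.inl ⟨rfl, q, rfl⟩)))))))) | exact Or.inr (Or.inr (Or.inr (Or.inr (Or.inr (Or.inr (Or.inr (Or.inr (Or.inr (⟨rfl, q, rfl⟩)))))))))
    case e8 q =>
      have hx' : x ∈ [2, 8, 12, 14, 18, 20, 24, 30] := hx
      have hy' : y ∈ [2, 8, 12, 14, 18, 20, 24, 30] := hy
      have hxd' : 5 * 30 ∣ 14 * x := hxd
      have hyd' : 14 * 30 ∣ 14 * y := hyd
      have h4 : 2 * 120 ≤ 9 * 30 := h2'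
      simp only [List.mem_cons, List.not_mem_nil, or_false] at hx' hy'
      clear hx hy hxd hyd h2' hch hY
      first | omega | exact Or.inl ⟨rfl, q, rfl⟩ | exact Or.inr (Or.inl ⟨rfl, q, rfl⟩) | exact Or.inr (Or.inr (Or.inl ⟨rfl, q, rfl⟩)) | exact Or.inr (Or.inr (Or.inr (Or.inl ⟨rfl, q, rfl⟩))) | exact Or.inr (Or.inr (Or.inr (Or.inr (Or.inl ⟨rfl, q, rfl⟩)))) | exact Or.inr (Or.inr (Or.inr (Or.inr (Or.inr (Or.inl ⟨rfl, q, rfl⟩))))) | exact Or.inr (Or.inr (Or.inr (Or.inr (Or.inr (Or.inr (Or.inl ⟨rfl, q, rfl⟩)))))) | exact Or.inr (Or.inr (Or.inr (Or.inr (Or.inr (Or.inr (Or.inr (Or.inl ⟨rfl, q, rfl⟩))))))) | exact Or.inr (Or.inr (Or.inr (Or.inr (Or.inr (Or.inr (Or.inr (Or.inr (Or.inl ⟨rfl, q, rfl⟩)))))))) | exact Or.inr (Or.inr (Or.inr (Or.inr (Or.inr (Or.inr (Or.inr (Or.inr (Or.inr (⟨rfl, q, rfl⟩)))))))))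
    case te6 q =>
      have hx' : x ∈ [2, 10, 6, 8, 18, 12] := hx
      have hy' : y ∈ [2, 10, 6, 8, 18, 12] := hy
      have hxd' : 5 * 18 ∣ 14 * x := hxd
      have hyd' : 14 * 18 ∣ 14 * y := hyd
      have h4 : 2 * 36 ≤ 9 * 18 := h2'
      simp only [List.mem_cons, List.not_mem_nil, or_false] at hx' hy'
      clear hx hy hxd hyd h2' hch hY
      first | omega | exact Or.inl ⟨rfl, q, rfl⟩ | exact Or.inr (Or.inl ⟨rfl, q, rfl⟩) | exact Or.inr (Or.inr (Or.inl ⟨rfl, q, rfl⟩)) | exact Or.inr (Or.inr (Or.inr (Or.inl ⟨rfl, q, rfl⟩))) | exact Or.inr (Or.inr (Or.inr (Or.inr (Or.inl ⟨rfl, q, rfl⟩)))) | exact Or.inr (Or.inr (Or.inr (Or.inr (Or.inr (Or.inl ⟨rfl, q, rfl⟩))))) | exact Or.inr (Or.inr (Or.inr (Or.inr (Or.inr (Or.inr (Or.inl ⟨rfl, q, rfl⟩)))))) | exact Or.inr (Or.inr (Or.inr (Or.inr (Or.inr (Or.inr (Or.inr (Or.inl ⟨rfl, q, rfl⟩))))))) | exact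 Or.inr (Or.inr (Or.inr (Or.inr (Or.inr (Or.inr (Or.inr (Or.inr (Or.inl ⟨rfl, q, rfl⟩)))))))) | exact Or.inr (Or.inr (Or.inr (Or.inr (Or.inr (Or.inr (Or.inr (Or.inr (Or.inr (⟨rfl, q, rfl⟩)))))))))
    case td4 q =>
      have hx' : x ∈ [2, 6, 12] := hx
      have hy' : y ∈ [2, 6, 12] := hy
      have hxd' : 5 * 12 ∣ 14 * x := hxd
      have hyd' : 14 * 12 ∣ 14 * y := hyd
      have h4 : 2 * 12 ≤ 9 * 12 := h2'
      simp only [List.mem_cons, List.not_mem_nil, or_false] at hx' hy'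
      clear hx hy hxd hyd h2' hch hY
      first | omega | exact Or.inl ⟨rfl, q, rfl⟩ | exact Or.inr (Or.inl ⟨rfl, q, rfl⟩) | exact Or.inr (Or.inr (Or.inl ⟨rfl, q, rfl⟩)) | exact Or.inr (Or.inr (Or.inr (Or.inl ⟨rfl, q, rfl⟩))) | exact Or.inr (Or.inr (Or.inr (Or.inr (Or.inl ⟨rfl, q, rfl⟩)))) | exact Or.inr (Or.inr (Or.inr (Or.inr (Or.inr (Or.inl ⟨rfl, q, rfl⟩))))) | exact Or.inr (Or.inr (Or.inr (Or.inr (Or.inr (Or.inr (Or.inl ⟨rfl, q, rfl⟩)))))) | exact Or.inr (Or.inr (Or.inr (Or.inr (Or.inr (Or.inr (Or.inr (Or.inl ⟨rfl, q, rfl⟩))))))) | exact Or.inr (Or.inr (Or.inr (Or.inr (Or.inr (Or.inr (Or.inr (Or.inr (Or.inl ⟨rfl, q, rfl⟩)))))))) | exact Or.inr (Or.inr (Or.inr (Or.inr (Or.inr (Or.inr (Or.inr (Or.inr (Or.inr (⟨rfl, q, rfl⟩)))))))))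
    case sz q =>
      have hx' : x ∈ [1, 4] := hx
      have hy' : y ∈ [1, 4] := hy
      have hxd' : 5 * 4 ∣ 14 * x := hxd
      have hyd' : 14 * 4 ∣ 14 * y := hyd
      have h4 : 2 * 2 ≤ 9 * 4 := h2'
      simp only [List.mem_cons, List.not_mem_nil, or_false] at hx' hy'
      clear hx hy hxd hyd h2' hch hY
      first | omega | exact Or.inl ⟨rfl, q, rfl⟩ | exact Or.inr (Or.inl ⟨rfl, q, rfl⟩) | exact Or.inr (Or.inr (Or.inl ⟨rfl, q, rfl⟩)) | exact Or.inr (Or.inr (Or.inr (Or.inl ⟨rfl, q, rfl⟩))) | exact Or.inr (Or.inr (Or.inr (Or.inr (Or.inl ⟨rfl, q, rfl⟩)))) | exact Or.inr (Or.inr (Or.inr (Or.inr (Or.inr (Or.inl ⟨rfl, q, rfl⟩))))) | exact Or.inr (Or.inr (Or.inr (Or.inr (Or.inr (Or.inr (Or.inl ⟨rfl, q, rfl⟩)))))) | exact Or.inr (Or.inr (Or.inr (Or.inr (Or.inr (Or.inr (Or.inr (Or.inl ⟨rfl, q, rfl⟩))))))) | exact Or.inr (Or.inr (Or.inr (Or.inr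 (Or.inr (Or.inr (Or.inr (Or.inr (Or.inl ⟨rfl, q, rfl⟩)))))))) | exact Or.inr (Or.inr (Or.inr (Or.inr (Or.inr (Or.inr (Or.inr (Or.inr (Or.inr (⟨rfl, q, rfl⟩)))))))))
    case ree q =>
      have hx' : x ∈ [1, 6] := hx
      have hy' : y ∈ [1, 6] := hy
      have hxd' : 5 * 6 ∣ 14 * x := hxd
      have hyd' : 14 * 6 ∣ 14 * y := hyd
      have h4 : 2 * 3 ≤ 9 * 6 := h2'
      simp only [List.mem_cons, List.not_mem_nil, or_false] at hx' hy'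
      clear hx hy hxd hyd h2' hch hY
      first | omega | exact Or.inl ⟨rfl, q, rfl⟩ | exact Or.inr (Or.inl ⟨rfl, q, rfl⟩) | exact Or.inr (Or.inr (Or.inl ⟨rfl, q, rfl⟩)) | exact Or.inr (Or.inr (Or.inr (Or.inl ⟨rfl, q, rfl⟩))) | exact Or.inr (Or.inr (Or.inr (Or.inr (Or.inl ⟨rfl, q, rfl⟩)))) | exact Or.inr (Or.inr (Or.inr (Or.inr (Or.inr (Or.inl ⟨rfl, q, rfl⟩))))) | exact Or.inr (Or.inr (Or.inr (Or.inr (Or.inr (Or.inr (Or.inl ⟨rfl, q, rfl⟩)))))) | exact Or.inr (Or.inr (Or.inr (Or.inr (Or.inr (Or.inr (Or.inr (Or.inl ⟨rfl, q, rfl⟩))))))) | exact Or.inr (Or.inr (Or.inr (Or.inr (Or.inr (Or.inr (Or.inr (Or.inr (Or.inl ⟨rfl, q, rfl⟩)))))))) | exact Or.inr (Or.inr (Or.inr (Or.inr (Or.inr (Or.inr (Or.inr (Or.inr (Or.inr (⟨rfl, q, rfl⟩)))))))))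
    case tf4 q =>
      have hx' : x ∈ [1, 6, 4, 12] := hx
      have hy' : y ∈ [1, 6, 4, 12] := hy
      have hxd' : 5 * 12 ∣ 14 * x := hxd
      have hyd' : 14 * 12 ∣ 14 * y := hyd
      have h4 : 2 * 12 ≤ 9 * 12 := h2'
      simp only [List.mem_cons, List.not_mem_nil, or_false] at hx' hy'
      clear hx hy hxd hyd h2' hch hY
      first | omega | exact Or.inl ⟨rfl, q, rfl⟩ | exact Or.inr (Or.inl ⟨rfl, q, rfl⟩) | exact Or.inr (Or.inr (Or.inl ⟨rfl, q, rfl⟩)) | exact Or.inr (Or.inr (Or.inr (Or.inl ⟨rfl, q, rfl⟩))) | exact Or.inr (Or.inr (Or.inr (Or.inr (Or.inl ⟨rfl, q, rfl⟩)))) | exact Or.inr (Or.inr (Or.inr (Or.inr (Or.inr (Or.inl ⟨rfl, q, rfl⟩))))) | exact Or.inr (Or.inr (Or.inr (Or.inr (Or.inr (Or.inr (Or.inl ⟨rfl, q, rfl⟩)))))) | exact Or.inr (Or.inr (Or.inr (Or.inr (Or.inr (Or.inr (Or.inr (Or.inl ⟨rfl, q, rfl⟩))))))) | exact Or.inr (Or.inr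 (Or.inr (Or.inr (Or.inr (Or.inr (Or.inr (Or.inr (Or.inl ⟨rfl, q, rfl⟩)))))))) | exact Or.inr (Or.inr (Or.inr (Or.inr (Or.inr (Or.inr (Or.inr (Or.inr (Or.inr (⟨rfl, q, rfl⟩)))))))))
    all_goals exact absurd hch not_false
  · have h2' : 2 * ag g ≤ 7 * Mg g := by omega
    clear h2
    cases g
    case psl m q =>
      obtain ⟨hm, -, -⟩ := hg
      have hb := bd_psl (ρ := 7) (by omega) h2'
      have hx' : 1 ≤ x ∧ x ≤ m := hx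
      have hy' : 1 ≤ y ∧ y ≤ m := hy
      have hxd' : 5 * m ∣ 18 * x := hxd
      have hyd' : 14 * m ∣ 18 * y := hyd
      clear hx hy hxd hyd h2' hch hY
      interval_cases m <;> first | omega | exact Or.inl ⟨rfl, q, rfl⟩ | exact Or.inr (Or.inl ⟨rfl, q, rfl⟩) | exact Or.inr (Or.inr (Or.inl ⟨rfl, q, rfl⟩)) | exact Or.inr (Or.inr (Or.inr (Or.inl ⟨rfl, q, rfl⟩))) | exact Or.inr (Or.inr (Or.inr (Or.inr (Or.inl ⟨rfl, q, rfl⟩)))) | exact Or.inr (Or.inr (Or.inr (Or.inr (Or.inr (Or.inl ⟨rfl, q, rfl⟩))))) | exact Or.inr (Or.inr (Or.inr (Or.inr (Or.inr (Or.inr (Or.inl ⟨rfl, q, rfl⟩)))))) | exact Or.inr (Or.inr (Or.inr (Or.inr (Or.inr (Or.inr (Or.inr (Or.inl ⟨rfl, q, rfl⟩))))))) | exact Or.inr (Or.inr (Or.inr (Or.inr (Or.inr (Or.inr (Or.inr (Or.inr (Or.inl ⟨rfl, q, rfl⟩)))))))) | exact Or.inr (Or.inr (Or.inr (Or.inr (Or.inr (Or.inr (Or.inr (Or.inr (Or.inr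 (⟨rfl, q, rfl⟩)))))))))
    case psp m q =>
      obtain ⟨hm, -, -⟩ := hg
      have hb := bd_psp (ρ := 7) (by omega) h2'
      have hx' : 1 ≤ x ∧ x ≤ 2 * m ∧ 2 ∣ x := hx
      have hy' : 1 ≤ y ∧ y ≤ 2 * m ∧ 2 ∣ y := hy
      have hxd' : 5 * (2 * m) ∣ 18 * x := hxd
      have hyd' : 14 * (2 * m) ∣ 18 * y := hyd
      clear hx hy hxd hyd h2' hch hY
      interval_cases m <;> first | omega | exact Or.inl ⟨rfl, q, rfl⟩ | exact Or.inr (Or.inl ⟨rfl, q, rfl⟩) | exact Or.inr (Or.inr (Or.inl ⟨rfl, q, rfl⟩)) | exact Or.inr (Or.inr (Or.inr (Or.inl ⟨rfl, q, rfl⟩))) | exact Or.inr (Or.inr (Or.inr (Or.inr (Or.inl ⟨rfl, q, rfl⟩)))) | exact Or.inr (Or.inr (Or.inr (Or.inr (Or.inr (Or.inl ⟨rfl, q, rfl⟩))))) | exact Or.inr (Or.inr (Or.inr (Or.inr (Or.inr (Or.inr (Or.inl ⟨rfl, q, rfl⟩)))))) | exact Or.inr (Or.inr (Or.inr (Or.inr (Or.inr (Or.inr (Or.inr (Or.inl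 ⟨rfl, q, rfl⟩))))))) | exact Or.inr (Or.inr (Or.inr (Or.inr (Or.inr (Or.inr (Or.inr (Or.inr (Or.inl ⟨rfl, q, rfl⟩)))))))) | exact Or.inr (Or.inr (Or.inr (Or.inr (Or.inr (Or.inr (Or.inr (Or.inr (Or.inr (⟨rfl, q, rfl⟩)))))))))
    case oodd m q =>
      obtain ⟨hm, -, -⟩ := hg
      have hb := bd_psp (ρ := 7) (by omega) h2'
      have hx' : 1 ≤ x ∧ x ≤ 2 * m ∧ 2 ∣ x := hx
      have hy' : 1 ≤ y ∧ y ≤ 2 * m ∧ 2 ∣ y := hy
      have hxd' : 5 * (2 * m) ∣ 18 * x := hxd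
      have hyd' : 14 * (2 * m) ∣ 18 * y := hyd
      clear hx hy hxd hyd h2' hch hY
      interval_cases m <;> first | omega | exact Or.inl ⟨rfl, q, rfl⟩ | exact Or.inr (Or.inl ⟨rfl, q, rfl⟩) | exact Or.inr (Or.inr (Or.inl ⟨rfl, q, rfl⟩)) | exact Or.inr (Or.inr (Or.inr (Or.inl ⟨rfl, q, rfl⟩))) | exact Or.inr (Or.inr (Or.inr (Or.inr (Or.inl ⟨rfl, q, rfl⟩)))) | exact Or.inr (Or.inr (Or.inr (Or.inr (Or.inr (Or.inl ⟨rfl, q, rfl⟩))))) | exact Or.inr (Or.inr (Or.inr (Or.inr (Or.inr (Or.inr (Or.inl ⟨rfl, q, rfl⟩)))))) | exact Or.inr (Or.inr (Or.inr (Or.inr (Or.inr (Or.inr (Or.inr (Or.inl ⟨rfl, q, rfl⟩))))))) | exact Or.inr (Or.inr (Or.inr (Or.inr (Or.inr (Or.inr (Or.inr (Or.inr (Or.inl ⟨rfl, q, rfl⟩)))))))) | exact Or.inr (Or.inr (Or.inr (Or.inr (Or.inr (Or.inr (Or.inr (Or.inr (Or.inr (⟨rfl, q, rfl⟩)))))))))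
    case psu m q =>
      obtain ⟨hm, -, -⟩ := hg
      have hb := bd_psu (ρ := 7) hm h2'
      have hx' : (1 ≤ x ∧ x ≤ m ∧ 2 ∣ x) ∨ ∃ j, x = 2 * j ∧ j ≤ m ∧ j % 2 = 1 := hx
      have hy' : (1 ≤ y ∧ y ≤ m ∧ 2 ∣ y) ∨ ∃ j, y = 2 * j ∧ j ≤ m ∧ j % 2 = 1 := hy
      obtain ⟨k, hk⟩ : ∃ k, k = (if m % 2 = 0 then m - 1 else m) := ⟨_, rfl⟩
      have hk' : (m % 2 = 0 ∧ k = m - 1) ∨ (m % 2 = 1 ∧ k = m) := by
        rw [hk]
        split_ifs <;> omega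
      have hM : Mg (.psu m q) = 2 * k := by rw [hk]; rfl
      have hxd' : 5 * (2 * k) ∣ 18 * x := hM ▸ hxd
      have hyd' : 14 * (2 * k) ∣ 18 * y := hM ▸ hyd
      clear hx hy hxd hyd h2' hch hY hM hk
      rcases hk' with ⟨hk1, hk2⟩ | ⟨hk1, hk2⟩ <;> rcases hx' with hx' | ⟨j, rfl, hx'⟩ <;>
        rcases hy' with hy' | ⟨l, rfl, hy'⟩ <;> interval_cases m <;> subst hk2 <;> first | omega | exact Or.inl ⟨rfl, q, rfl⟩ | exact Or.inr (Or.inl ⟨rfl, q, rfl⟩) | exact Or.inr (Or.inr (Or.inl ⟨rfl, q, rfl⟩)) | exact Or.inr (Or.inr (Or.inr (Or.inl ⟨rfl, q, rfl⟩))) | exact Or.inr (Or.inr (Or.inr (Or.inr (Or.inl ⟨rfl, q, rfl⟩)))) | exact Or.inr (Or.inr (Or.inr (Or.inr (Or.inr (Or.inl ⟨rfl, q, rfl⟩))))) | exact Or.inr (Or.inr (Or.inr (Or.inr (Or.inr (Or.inr (Or.inl ⟨rfl, q, rfl⟩)))))) | exact Or.inr (Or.inr (Or.inr (Or.inr (Or.inr (Or.inr (Or.inr (Or.inl ⟨rfl,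 q, rfl⟩))))))) | exact Or.inr (Or.inr (Or.inr (Or.inr (Or.inr (Or.inr (Or.inr (Or.inr (Or.inl ⟨rfl, q, rfl⟩)))))))) | exact Or.inr (Or.inr (Or.inr (Or.inr (Or.inr (Or.inr (Or.inr (Or.inr (Or.inr (⟨rfl, q, rfl⟩)))))))))
    case oplus m q =>
      obtain ⟨hm, -⟩ := hg
      have hb := bd_oplus (ρ := 7) (by omega) h2'
      have hx' : 1 ≤ x ∧ x ≤ 2 * (m - 1) ∧ (2 ∣ x ∨ x = m) := hx
      have hy' : 1 ≤ y ∧ y ≤ 2 * (m - 1) ∧ (2 ∣ y ∨ y = m) := hy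
      have hxd' : 5 * (2 * (m - 1)) ∣ 18 * x := hxd
      have hyd' : 14 * (2 * (m - 1)) ∣ 18 * y := hyd
      clear hx hy hxd hyd h2' hch hY
      interval_cases m <;> first | omega | exact Or.inl ⟨rfl, q, rfl⟩ | exact Or.inr (Or.inl ⟨rfl, q, rfl⟩) | exact Or.inr (Or.inr (Or.inl ⟨rfl, q, rfl⟩)) | exact Or.inr (Or.inr (Or.inr (Or.inl ⟨rfl, q, rfl⟩))) | exact Or.inr (Or.inr (Or.inr (Or.inr (Or.inl ⟨rfl, q, rfl⟩)))) | exact Or.inr (Or.inr (Or.inr (Or.inr (Or.inr (Or.inl ⟨rfl, q, rfl⟩))))) | exact Or.inr (Or.inr (Or.inr (Or.inr (Or.inr (Or.inr (Or.inl ⟨rfl, q, rfl⟩)))))) | exact Or.inr (Or.inr (Or.inr (Or.inr (Or.inr (Or.inr (Or.inr (Or.inl ⟨rfl, q, rfl⟩))))))) | exact Or.inr (Or.inr (Or.inr (Or.inr (Or.inr (Or.inr (Or.inr (Or.inr (Or.inl ⟨rfl, q, rfl⟩)))))))) | exact Or.inr (Or.inr (Or.inr (Or.inr (Or.inr (Or.inr (Or.inr (Or.inr (Or.inr (⟨rfl,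 q, rfl⟩)))))))))
    case ominus m q =>
      obtain ⟨hm, -⟩ := hg
      have hb := bd_ominus (ρ := 7) (by omega) h2'
      have hx' : 1 ≤ x ∧ x ≤ 2 * m ∧ 2 ∣ x := hx
      have hy' : 1 ≤ y ∧ y ≤ 2 * m ∧ 2 ∣ y := hy
      have hxd' : 5 * (2 * m) ∣ 18 * x := hxd
      have hyd' : 14 * (2 * m) ∣ 18 * y := hyd
      clear hx hy hxd hyd h2' hch hY
      interval_cases m <;> first | omega | exact Or.inl ⟨rfl, q, rfl⟩ | exact Or.inr (Or.inl ⟨rfl, q, rfl⟩) | exact Or.inr (Or.inr (Or.inl ⟨rfl, q, rfl⟩)) | exact Or.inr (Or.inr (Or.inr (Or.inl ⟨rfl, q, rfl⟩))) | exact Or.inr (Or.inr (Or.inr (Or.inr (Or.inl ⟨rfl, q, rfl⟩)))) | exact Or.inr (Or.inr (Or.inr (Or.inr (Or.inr (Or.inl ⟨rfl, q, rfl⟩))))) | exact Or.inr (Or.inr (Or.inr (Or.inr (Or.inr (Or.inr (Or.inl ⟨rfl, q, rfl⟩)))))) | exact Or.inr (Or.inr (Or.inr (Or.inr (Or.inr (Or.inr (Or.inr (Or.inl ⟨rfl,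 q, rfl⟩))))))) | exact Or.inr (Or.inr (Or.inr (Or.inr (Or.inr (Or.inr (Or.inr (Or.inr (Or.inl ⟨rfl, q, rfl⟩)))))))) | exact Or.inr (Or.inr (Or.inr (Or.inr (Or.inr (Or.inr (Or.inr (Or.inr (Or.inr (⟨rfl, q, rfl⟩)))))))))
    case g2 q =>
      have hx' : x ∈ [2, 6] := hx
      have hy' : y ∈ [2, 6] := hy
      have hxd' : 5 * 6 ∣ 18 * x := hxd
      have hyd' : 14 * 6 ∣ 18 * y := hyd
      have h4 : 2 * 6 ≤ 7 * 6 := h2'
      simp only [List.mem_cons, List.not_mem_nil, or_false] at hx' hy'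
      clear hx hy hxd hyd h2' hch hY
      first | omega | exact Or.inl ⟨rfl, q, rfl⟩ | exact Or.inr (Or.inl ⟨rfl, q, rfl⟩) | exact Or.inr (Or.inr (Or.inl ⟨rfl, q, rfl⟩)) | exact Or.inr (Or.inr (Or.inr (Or.inl ⟨rfl, q, rfl⟩))) | exact Or.inr (Or.inr (Or.inr (Or.inr (Or.inl ⟨rfl, q, rfl⟩)))) | exact Or.inr (Or.inr (Or.inr (Or.inr (Or.inr (Or.inl ⟨rfl, q, rfl⟩))))) | exact Or.inr (Or.inr (Or.inr (Or.inr (Or.inr (Or.inr (Or.inl ⟨rfl, q, rfl⟩)))))) | exact Or.inr (Or.inr (Or.inr (Or.inr (Or.inr (Or.inr (Or.inr (Or.inl ⟨rfl, q, rfl⟩))))))) | exact Or.inr (Or.inr (Or.inr (Or.inr (Or.inr (Or.inr (Or.inr (Or.inr (Or.inl ⟨rfl, q, rfl⟩)))))))) | exact Or.inr (Or.inr (Or.inr (Or.inr (Or.inr (Or.inr (Or.inr (Or.inr (Or.inr (⟨rfl, q, rfl⟩)))))))))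
    case f4 q =>
      have hx' : x ∈ [2, 6, 8, 12] := hx
      have hy' : y ∈ [2, 6, 8, 12] := hy
      have hxd' : 5 * 12 ∣ 18 * x := hxd
      have hyd' : 14 * 12 ∣ 18 * y := hyd
      have h4 : 2 * 24 ≤ 7 * 12 := h2'
      simp only [List.mem_cons, List.not_mem_nil, or_false] at hx' hy'
      clear hx hy hxd hyd h2' hch hY
      first | omega | exact Or.inl ⟨rfl, q, rfl⟩ | exact Or.inr (Or.inl ⟨rfl, q, rfl⟩) | exact Or.inr (Or.inr (Or.inl ⟨rfl, q, rfl⟩)) | exact Or.inr (Or.inr (Or.inr (Or.inl ⟨rfl, q, rfl⟩))) | exact Or.inr (Or.inr (Or.inr (Or.inr (Or.inl ⟨rfl, q, rfl⟩)))) | exact Or.inr (Or.inr (Or.inr (Or.inr (Or.inr (Or.inl ⟨rfl, q, rfl⟩))))) | exact Or.inr (Or.inr (Or.inr (Or.inr (Or.inr (Or.inr (Or.inl ⟨rfl, q, rfl⟩)))))) | exact Or.inr (Or.inr (Or.inr (Or.inr (Or.inr (Or.inr (Or.inr (Or.inl ⟨rfl, q, rfl⟩))))))) | exact Or.inr (Or.inr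 (Or.inr (Or.inr (Or.inr (Or.inr (Or.inr (Or.inr (Or.inl ⟨rfl, q, rfl⟩)))))))) | exact Or.inr (Or.inr (Or.inr (Or.inr (Or.inr (Or.inr (Or.inr (Or.inr (Or.inr (⟨rfl, q, rfl⟩)))))))))
    case e6 q =>
      have hx' : x ∈ [2, 5, 6, 8, 9, 12] := hx
      have hy' : y ∈ [2, 5, 6, 8, 9, 12] := hy
      have hxd' : 5 * 12 ∣ 18 * x := hxd
      have hyd' : 14 * 12 ∣ 18 * y := hyd
      have h4 : 2 * 36 ≤ 7 * 12 := h2'
      simp only [List.mem_cons, List.not_mem_nil, or_false] at hx' hy'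
      clear hx hy hxd hyd h2' hch hY
      first | omega | exact Or.inl ⟨rfl, q, rfl⟩ | exact Or.inr (Or.inl ⟨rfl, q, rfl⟩) | exact Or.inr (Or.inr (Or.inl ⟨rfl, q, rfl⟩)) | exact Or.inr (Or.inr (Or.inr (Or.inl ⟨rfl, q, rfl⟩))) | exact Or.inr (Or.inr (Or.inr (Or.inr (Or.inl ⟨rfl, q, rfl⟩)))) | exact Or.inr (Or.inr (Or.inr (Or.inr (Or.inr (Or.inl ⟨rfl, q, rfl⟩))))) | exact Or.inr (Or.inr (Or.inr (Or.inr (Or.inr (Or.inr (Or.inl ⟨rfl, q, rfl⟩)))))) | exact Or.inr (Or.inr (Or.inr (Or.inr (Or.inr (Or.inr (Or.inr (Or.inl ⟨rfl, q, rfl⟩))))))) | exact Or.inr (Or.inr (Or.inr (Or.inr (Or.inr (Or.inr (Or.inr (Or.inr (Or.inl ⟨rfl, q, rfl⟩)))))))) | exact Or.inr (Or.inr (Or.inr (Or.inr (Or.inr (Or.inr (Or.inr (Or.inr (Or.inr (⟨rfl, q, rfl⟩)))))))))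
    case e7 q =>
      have hx' : x ∈ [2, 6, 8, 10, 12, 14, 18] := hx
      have hy' : y ∈ [2, 6, 8, 10, 12, 14, 18] := hy
      have hxd' : 5 * 18 ∣ 18 * x := hxd
      have hyd' : 14 * 18 ∣ 18 * y := hyd
      have h4 : 2 * 63 ≤ 7 * 18 := h2'
      simp only [List.mem_cons, List.not_mem_nil, or_false] at hx' hy'
      clear hx hy hxd hyd h2' hch hY
      first | omega | exact Or.inl ⟨rfl, q, rfl⟩ | exact Or.inr (Or.inl ⟨rfl, q, rfl⟩) | exact Or.inr (Or.inr (Or.inl ⟨rfl, q, rfl⟩)) | exact Or.inr (Or.inr (Or.inr (Or.inl ⟨rfl, q, rfl⟩))) | exact Or.inr (Or.inr (Or.inr (Or.inr (Or.inl ⟨rfl, q, rfl⟩)))) | exact Or.inr (Or.inr (Or.inr (Or.inr (Or.inr (Or.inl ⟨rfl, q, rfl⟩))))) | exact Or.inr (Or.inr (Or.inr (Or.inr (Or.inr (Or.inr (Or.inl ⟨rfl, q, rfl⟩)))))) | exact Or.inr (Or.inr (Or.inr (Or.inr (Or.inr (Or.inr (Or.inr (Or.inl ⟨rfl, q, rfl⟩)))))))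 | exact Or.inr (Or.inr (Or.inr (Or.inr (Or.inr (Or.inr (Or.inr (Or.inr (Or.inl ⟨rfl, q, rfl⟩)))))))) | exact Or.inr (Or.inr (Or.inr (Or.inr (Or.inr (Or.inr (Or.inr (Or.inr (Or.inr (⟨rfl, q, rfl⟩)))))))))
    case e8 q =>
      have hx' : x ∈ [2, 8, 12, 14, 18, 20, 24, 30] := hx
      have hy' : y ∈ [2, 8, 12, 14, 18, 20, 24, 30] := hy
      have hxd' : 5 * 30 ∣ 18 * x := hxd
      have hyd' : 14 * 30 ∣ 18 * y := hyd
      have h4 : 2 * 120 ≤ 7 * 30 := h2'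
      simp only [List.mem_cons, List.not_mem_nil, or_false] at hx' hy'
      clear hx hy hxd hyd h2' hch hY
      first | omega | exact Or.inl ⟨rfl, q, rfl⟩ | exact Or.inr (Or.inl ⟨rfl, q, rfl⟩) | exact Or.inr (Or.inr (Or.inl ⟨rfl, q, rfl⟩)) | exact Or.inr (Or.inr (Or.inr (Or.inl ⟨rfl, q, rfl⟩))) | exact Or.inr (Or.inr (Or.inr (Or.inr (Or.inl ⟨rfl, q, rfl⟩)))) | exact Or.inr (Or.inr (Or.inr (Or.inr (Or.inr (Or.inl ⟨rfl, q, rfl⟩))))) | exact Or.inr (Or.inr (Or.inr (Or.inr (Or.inr (Or.inr (Or.inl ⟨rfl, q, rfl⟩)))))) | exact Or.inr (Or.inr (Or.inr (Or.inr (Or.inr (Or.inr (Or.inr (Or.inl ⟨rfl, q, rfl⟩))))))) | exact Or.inr (Or.inr (Or.inr (Or.inr (Or.inr (Or.inr (Or.inr (Or.inr (Or.inl ⟨rfl, q, rfl⟩)))))))) | exact Or.inr (Or.inr (Or.inr (Or.inr (Or.inr (Or.inr (Or.inr (Or.inr (Or.inr (⟨rfl, q, rfl⟩)))))))))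
    case te6 q =>
      have hx' : x ∈ [2, 10, 6, 8, 18, 12] := hx
      have hy' : y ∈ [2, 10, 6, 8, 18, 12] := hy
      have hxd' : 5 * 18 ∣ 18 * x := hxd
      have hyd' : 14 * 18 ∣ 18 * y := hyd
      have h4 : 2 * 36 ≤ 7 * 18 := h2'
      simp only [List.mem_cons, List.not_mem_nil, or_false] at hx' hy'
      clear hx hy hxd hyd h2' hch hY
      first | omega | exact Or.inl ⟨rfl, q, rfl⟩ | exact Or.inr (Or.inl ⟨rfl, q, rfl⟩) | exact Or.inr (Or.inr (Or.inl ⟨rfl, q, rfl⟩)) | exact Or.inr (Or.inr (Or.inr (Or.inl ⟨rfl, q, rfl⟩))) | exact Or.inr (Or.inr (Or.inr (Or.inr (Or.inl ⟨rfl, q, rfl⟩)))) | exact Or.inr (Or.inr (Or.inr (Or.inr (Or.inr (Or.inl ⟨rfl, q, rfl⟩))))) | exact Or.inr (Or.inr (Or.inr (Or.inr (Or.inr (Or.inr (Or.inl ⟨rfl, q, rfl⟩)))))) | exact Or.inr (Or.inr (Or.inr (Or.inr (Or.inr (Or.inr (Or.inr (Or.inl ⟨rfl, q, rfl⟩))))))) | exact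 Or.inr (Or.inr (Or.inr (Or.inr (Or.inr (Or.inr (Or.inr (Or.inr (Or.inl ⟨rfl, q, rfl⟩)))))))) | exact Or.inr (Or.inr (Or.inr (Or.inr (Or.inr (Or.inr (Or.inr (Or.inr (Or.inr (⟨rfl, q, rfl⟩)))))))))
    case td4 q =>
      have hx' : x ∈ [2, 6, 12] := hx
      have hy' : y ∈ [2, 6, 12] := hy
      have hxd' : 5 * 12 ∣ 18 * x := hxd
      have hyd' : 14 * 12 ∣ 18 * y := hyd
      have h4 : 2 * 12 ≤ 7 * 12 := h2'
      simp only [List.mem_cons, List.not_mem_nil, or_false] at hx' hy'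
      clear hx hy hxd hyd h2' hch hY
      first | omega | exact Or.inl ⟨rfl, q, rfl⟩ | exact Or.inr (Or.inl ⟨rfl, q, rfl⟩) | exact Or.inr (Or.inr (Or.inl ⟨rfl, q, rfl⟩)) | exact Or.inr (Or.inr (Or.inr (Or.inl ⟨rfl, q, rfl⟩))) | exact Or.inr (Or.inr (Or.inr (Or.inr (Or.inl ⟨rfl, q, rfl⟩)))) | exact Or.inr (Or.inr (Or.inr (Or.inr (Or.inr (Or.inl ⟨rfl, q, rfl⟩))))) | exact Or.inr (Or.inr (Or.inr (Or.inr (Or.inr (Or.inr (Or.inl ⟨rfl, q, rfl⟩)))))) | exact Or.inr (Or.inr (Or.inr (Or.inr (Or.inr (Or.inr (Or.inr (Or.inl ⟨rfl, q, rfl⟩))))))) | exact Or.inr (Or.inr (Or.inr (Or.inr (Or.inr (Or.inr (Or.inr (Or.inr (Or.inl ⟨rfl, q, rfl⟩)))))))) | exact Or.inr (Or.inr (Or.inr (Or.inr (Or.inr (Or.inr (Or.inr (Or.inr (Or.inr (⟨rfl, q, rfl⟩)))))))))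
    case sz q =>
      have hx' : x ∈ [1, 4] := hx
      have hy' : y ∈ [1, 4] := hy
      have hxd' : 5 * 4 ∣ 18 * x := hxd
      have hyd' : 14 * 4 ∣ 18 * y := hyd
      have h4 : 2 * 2 ≤ 7 * 4 := h2'
      simp only [List.mem_cons, List.not_mem_nil, or_false] at hx' hy'
      clear hx hy hxd hyd h2' hch hY
      first | omega | exact Or.inl ⟨rfl, q, rfl⟩ | exact Or.inr (Or.inl ⟨rfl, q, rfl⟩) | exact Or.inr (Or.inr (Or.inl ⟨rfl, q, rfl⟩)) | exact Or.inr (Or.inr (Or.inr (Or.inl ⟨rfl, q, rfl⟩))) | exact Or.inr (Or.inr (Or.inr (Or.inr (Or.inl ⟨rfl, q, rfl⟩)))) | exact Or.inr (Or.inr (Or.inr (Or.inr (Or.inr (Or.inl ⟨rfl, q, rfl⟩))))) | exact Or.inr (Or.inr (Or.inr (Or.inr (Or.inr (Or.inr (Or.inl ⟨rfl, q, rfl⟩)))))) | exact Or.inr (Or.inr (Or.inr (Or.inr (Or.inr (Or.inr (Or.inr (Or.inl ⟨rfl, q, rfl⟩))))))) | exact Or.inr (Or.inr (Or.inr (Or.inr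 (Or.inr (Or.inr (Or.inr (Or.inr (Or.inl ⟨rfl, q, rfl⟩)))))))) | exact Or.inr (Or.inr (Or.inr (Or.inr (Or.inr (Or.inr (Or.inr (Or.inr (Or.inr (⟨rfl, q, rfl⟩)))))))))
    case ree q =>
      have hx' : x ∈ [1, 6] := hx
      have hy' : y ∈ [1, 6] := hy
      have hxd' : 5 * 6 ∣ 18 * x := hxd
      have hyd' : 14 * 6 ∣ 18 * y := hyd
      have h4 : 2 * 3 ≤ 7 * 6 := h2'
      simp only [List.mem_cons, List.not_mem_nil, or_false] at hx' hy'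
      clear hx hy hxd hyd h2' hch hY
      first | omega | exact Or.inl ⟨rfl, q, rfl⟩ | exact Or.inr (Or.inl ⟨rfl, q, rfl⟩) | exact Or.inr (Or.inr (Or.inl ⟨rfl, q, rfl⟩)) | exact Or.inr (Or.inr (Or.inr (Or.inl ⟨rfl, q, rfl⟩))) | exact Or.inr (Or.inr (Or.inr (Or.inr (Or.inl ⟨rfl, q, rfl⟩)))) | exact Or.inr (Or.inr (Or.inr (Or.inr (Or.inr (Or.inl ⟨rfl, q, rfl⟩))))) | exact Or.inr (Or.inr (Or.inr (Or.inr (Or.inr (Or.inr (Or.inl ⟨rfl, q, rfl⟩)))))) | exact Or.inr (Or.inr (Or.inr (Or.inr (Or.inr (Or.inr (Or.inr (Or.inl ⟨rfl, q, rfl⟩))))))) | exact Or.inr (Or.inr (Or.inr (Or.inr (Or.inr (Or.inr (Or.inr (Or.inr (Or.inl ⟨rfl, q, rfl⟩)))))))) | exact Or.inr (Or.inr (Or.inr (Or.inr (Or.inr (Or.inr (Or.inr (Or.inr (Or.inr (⟨rfl, q, rfl⟩)))))))))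
    case tf4 q =>
      have hx' : x ∈ [1, 6, 4, 12] := hx
      have hy' : y ∈ [1, 6, 4, 12] := hy
      have hxd' : 5 * 12 ∣ 18 * x := hxd
      have hyd' : 14 * 12 ∣ 18 * y := hyd
      have h4 : 2 * 12 ≤ 7 * 12 := h2'
      simp only [List.mem_cons, List.not_mem_nil, or_false] at hx' hy'
      clear hx hy hxd hyd h2' hch hY
      first | omega | exact Or.inl ⟨rfl, q, rfl⟩ | exact Or.inr (Or.inl ⟨rfl, q, rfl⟩) | exact Or.inr (Or.inr (Or.inl ⟨rfl, q, rfl⟩)) | exact Or.inr (Or.inr (Or.inr (Or.inl ⟨rfl, q, rfl⟩))) | exact Or.inr (Or.inr (Or.inr (Or.inr (Or.inl ⟨rfl, q, rfl⟩)))) | exact Or.inr (Or.inr (Or.inr (Or.inr (Or.inr (Or.inl ⟨rfl, q, rfl⟩))))) | exact Or.inr (Or.inr (Or.inr (Or.inr (Or.inr (Or.inr (Or.inl ⟨rfl, q, rfl⟩)))))) | exact Or.inr (Or.inr (Or.inr (Or.inr (Or.inr (Or.inr (Or.inr (Or.inl ⟨rfl, q, rfl⟩))))))) | exact Or.inr (Or.inr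 (Or.inr (Or.inr (Or.inr (Or.inr (Or.inr (Or.inr (Or.inl ⟨rfl, q, rfl⟩)))))))) | exact Or.inr (Or.inr (Or.inr (Or.inr (Or.inr (Or.inr (Or.inr (Or.inr (Or.inr (⟨rfl, q, rfl⟩)))))))))
    all_goals exact absurd hch not_false


/-! ### one prime of the first class -/

theorem compP1 {XT : ℕ → Prop} {MT aT e1 e2 f₁ : ℕ} (hp : p.Prime) (hf : 1 ≤ f) (hg : Cond g) (hch : HasChar p g)
    (hf₁ : 1 ≤ f₁) (hfl : fld g = p ^ f₁) (hK : KD p f₁ c (Xg g) (Yg g) (Mg g) (ag g)) (hY : Yg g (Mg g))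
    (hT : TD p f c XT MT aT) (h7 : 7 ≤ e2) (h2 : MT < 2 * e2)
    (hs1 : ∃ s, Prim p (f * e1) s ∧ s ∣ c) (hs2 : HT p f e2 g c) :
    ∃ i, XT i ∧ e2 ≤ i ∧ f₁ * Mg g = f * i ∧ ag g * i ≤ aT * Mg g ∧ (∃ x, Xg g x ∧ e1 * Mg g ∣ i * x) ∧
      (∃ x, Xg g x ∧ e2 * Mg g ∣ i * x) ∧
      (∀ k, (k = 4 ∨ k = 5 ∨ 7 ≤ k) → Yg g k → ∃ j, XT j ∧ i * k ∣ Mg g * j) := by
  have hM2 := two_le_Mg hg hch
  have hfe2 : 1 * e2 ≤ f * e2 := Nat.mul_le_mul_right _ hf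
  have hb := f1_le2 hp hf hT hK hY hM2 h2.le (by omega)
  have hs2' : ∀ s, Prim p (f * e2) s → s ∣ c := fun s hs => by
    refine hs2.mem hp hfl (prim_pow hf hs) fun hd => ?_
    have h3 := lt_of_prim hs
    have := Nat.le_of_dvd (by omega) hd
    omega
  obtain ⟨i, hi, hei, hfM, ha, hX, hYc⟩ := comp2 hp hf hT hK hf₁ h7 h2 hs2' hY
  refine ⟨i, hi, hei, hfM, ha, ?_, hX e2 (by omega) (by omega) hs2', fun k hk hYk => hYc k hYk ?_ ?_⟩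
  · obtain ⟨s, hs, hsc⟩ := hs1
    obtain ⟨x, hx, k, hk⟩ := hK.exp hs hsc
    refine ⟨x, hx, ?_⟩
    refine Nat.dvd_of_mul_dvd_mul_left (show 0 < f by omega) ⟨k, ?_⟩
    calc f * (i * x) = (f * i) * x := by ring
      _ = (f₁ * Mg g) * x := by rw [hfM]
      _ = (f₁ * x) * Mg g := by ring
      _ = f * e1 * k * Mg g := by rw [hk]
      _ = f * (e1 * Mg g) * k := by ring
  · have : 1 * k ≤ f₁ * k := Nat.mul_le_mul_right _ hf₁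
    omega
  · rintro ⟨-, h⟩
    have h8 : k ∣ 6 := ⟨f₁, by rw [← h, mul_comm]⟩
    have h9 := Nat.le_of_dvd (by norm_num) h8
    rcases hk with rfl | rfl | hk
    · exact absurd h8 (by norm_num)
    · exact absurd h8 (by norm_num)
    · omega

/-! ### kills -/

/-- the orthogonal groups of minus type contain no primes of odd order `e`, `m ≤ e` -/
theorem kill_om {n e f₁ : ℕ} (hp : p.Prime) (hf : 1 ≤ f) (he : e % 2 = 1) (he3 : 2 ≤ e) (hn : n ≤ e)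
    (h1 : f₁ = f) (hc : den (.ominus n (p ^ f₁)) * c = num (.ominus n (p ^ f₁))) (hs : HT p f e (.ominus n (p ^ f₁)) c)
    (he5 : 5 ≤ e) : False := by
  subst h1
  obtain ⟨s, hs0⟩ := exists_prim (q := p) (e := f₁ * e) hp.two_le (by nlinarith) (by
    rintro ⟨-, h⟩
    have h8 : e ∣ 6 := ⟨f₁, by rw [← h, mul_comm]⟩
    have h9 := Nat.le_of_dvd (by norm_num) h8
    interval_cases e
    · exact absurd h8 (by norm_num)
    · omega)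
  have hs' := prim_pow hf hs0
  have h2 := hs.mem hp rfl hs' fun h => by
    have h3 := lt_of_prim hs0
    have h4 := Nat.le_of_dvd hf h
    nlinarith
  have h3 : s ∣ num (.ominus n (p ^ f₁)) := by
    rw [← hc]
    exact h2.mul_left _
  have h4 : s ∣ (p ^ f₁) ^ (n * (n - 1)) * (((p ^ f₁) ^ n + 1) * prB (p ^ f₁) (n - 1)) := h3
  rcases hs'.prime.dvd_mul.1 h4 with h5 | h5
  · exact hs'.not_dvd_pow _ h5
  rcases hs'.prime.dvd_mul.1 h5 with h5 | h5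
  · exact not_dvd_add_odd hs' he he3 _ h5
  rw [prB_eq, Prime.dvd_finsetProd_iff hs'.prime.prime] at h5
  obtain ⟨i, hi, hd⟩ := h5
  rw [Finset.mem_range] at hi
  rw [hs'.dvd_iff] at hd
  obtain ⟨k, hk⟩ := hd
  rcases Nat.lt_or_ge k 2 with h4 | h4
  · interval_cases k
    · omega
    · omega
  · have : e * 2 ≤ e * k := Nat.mul_le_mul_left _ h4
    omega

section Kill

variable {s : ℕ} (hp : p.Prime) (hf : 1 ≤ f) (hs4 : Prim (p ^ f) 4 s) (hd : c ∣ num (.e7 (p ^ f)))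

include hp hf hs4 hd

/-- too many factors divisible by the primes of order `4` -/
theorem kill4_e7 {D A : ℕ} (hD : ¬ s ∣ D)
    (h : D * c = A * (((p ^ f) ^ 4 - 1) * (((p ^ f) ^ 8 - 1) * ((p ^ f) ^ 12 - 1)))) : False := by
  have hq : 2 ≤ p ^ f := hp.two_le.trans (Nat.le_self_pow (by omega) _)
  have b2 := sub_pos' (d := 2) hq (by norm_num)
  have b6 := sub_pos' (d := 6) hq (by norm_num)
  have b8 := sub_pos' (d := 8) hq (by norm_num)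
  have b10 := sub_pos' (d := 10) hq (by norm_num)
  have b12 := sub_pos' (d := 12) hq (by norm_num)
  have b14 := sub_pos' (d := 14) hq (by norm_num)
  have b18 := sub_pos' (d := 18) hq (by norm_num)
  have hd' : c ∣ (p ^ f) ^ 63 * ((((p ^ f) ^ 2 - 1) * ((p ^ f) ^ 6 - 1) * ((p ^ f) ^ 10 - 1) * ((p ^ f) ^ 14 - 1) *
      ((p ^ f) ^ 18 - 1)) * (((p ^ f) ^ 8 - 1) * ((p ^ f) ^ 12 - 1))) := by
    have h1 : c ∣ (p ^ f) ^ 63 * (((p ^ f) ^ 2 - 1) * ((p ^ f) ^ 6 - 1) *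
      ((p ^ f) ^ 8 - 1) * ((p ^ f) ^ 10 - 1) * ((p ^ f) ^ 12 - 1) * ((p ^ f) ^ 14 - 1) * ((p ^ f) ^ 18 - 1)) := hd
    refine h1.trans (dvd_of_eq ?_)
    ring
  have hc0 : 0 < c := pos_of_dvd (by positivity) hd'
  refine cancel_prime hs4.prime (Z := ((p ^ f) ^ 8 - 1) * ((p ^ f) ^ 12 - 1)) (by positivity) hc0 h hd'
    (hs4.dvd dvd_rfl) hD (hs4.not_dvd_pow _) (fun h => ?_)
  rcases hs4.prime.dvd_mul.1 h with h | h
  · rcases hs4.prime.dvd_mul.1 h with h | h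
    · rcases hs4.prime.dvd_mul.1 h with h | h
      · rcases hs4.prime.dvd_mul.1 h with h | h
        · exact hs4.not_dvd_sub (by norm_num) h
        · exact hs4.not_dvd_sub (by norm_num) h
      · exact hs4.not_dvd_sub (by norm_num) h
    · exact hs4.not_dvd_sub (by norm_num) h
  · exact hs4.not_dvd_sub (by norm_num) h

theorem kill4_e7_psp (hc : den (.psp 7 (p ^ f)) * c = num (.psp 7 (p ^ f))) : False := by
  have hs5 : 5 ≤ s := by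
    have := lt_of_prim hs4
    omega
  have h6 : Nat.gcd 2 (p ^ f - 1) * c = (p ^ f) ^ (7 ^ 2) * prB (p ^ f) 7 := hc
  refine kill4_e7 hp hf hs4 hd (D := Nat.gcd 2 (p ^ f - 1)) (A := (p ^ f) ^ (7 ^ 2) * (((p ^ f) ^ 2 - 1) *
    ((p ^ f) ^ 6 - 1) * ((p ^ f) ^ 10 - 1) * ((p ^ f) ^ 14 - 1))) (fun h => ?_) ?_
  · have := Nat.le_of_dvd (by norm_num) (h.trans (Nat.gcd_dvd_left _ _))
    omega
  · rw [h6, prB_eq]
    simp only [Finset.prod_range_succ, Finset.prod_range_zero, one_mul]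
    norm_num only
    ring

theorem kill4_e7_oodd (hc : den (.oodd 7 (p ^ f)) * c = num (.oodd 7 (p ^ f))) : False := by
  have hs5 : 5 ≤ s := by
    have := lt_of_prim hs4
    omega
  have h6 : 2 * c = (p ^ f) ^ (7 ^ 2) * prB (p ^ f) 7 := hc
  refine kill4_e7 hp hf hs4 hd (D := 2) (A := (p ^ f) ^ (7 ^ 2) * (((p ^ f) ^ 2 - 1) *
    ((p ^ f) ^ 6 - 1) * ((p ^ f) ^ 10 - 1) * ((p ^ f) ^ 14 - 1))) (fun h => ?_) ?_
  · have := Nat.le_of_dvd (by norm_num) h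
    omega
  · rw [h6, prB_eq]
    simp only [Finset.prod_range_succ, Finset.prod_range_zero, one_mul]
    norm_num only
    ring

theorem kill4_e7_oplus (hc : den (.oplus 8 (p ^ f)) * c = num (.oplus 8 (p ^ f))) : False := by
  have hs5 : 5 ≤ s := by
    have := lt_of_prim hs4
    omega
  have h6 : Nat.gcd 4 ((p ^ f) ^ 8 - 1) * c = (p ^ f) ^ (8 * (8 - 1)) * (((p ^ f) ^ 8 - 1) * prB (p ^ f) (8 - 1)) := hc
  refine kill4_e7 hp hf hs4 hd (D := Nat.gcd 4 ((p ^ f) ^ 8 - 1)) (A := (p ^ f) ^ (8 * (8 - 1)) * ((p ^ f) ^ 8 - 1) *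
    (((p ^ f) ^ 2 - 1) * ((p ^ f) ^ 6 - 1) * ((p ^ f) ^ 10 - 1) * ((p ^ f) ^ 14 - 1))) (fun h => ?_) ?_
  · have := Nat.le_of_dvd (by norm_num) (h.trans (Nat.gcd_dvd_left _ _))
    omega
  · rw [h6, prB_eq]
    simp only [Finset.prod_range_succ, Finset.prod_range_zero, one_mul]
    norm_num only
    ring

theorem kill4_e7_psl (hc : den (.psl 7 (p ^ (f * 2))) * c = num (.psl 7 (p ^ (f * 2)))) : False := by
  have hs5 : 5 ≤ s := by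
    have := lt_of_prim hs4
    omega
  have h6 : Nat.gcd 7 (p ^ (f * 2) - 1) * (p ^ (f * 2) - 1) * c = glN 7 (p ^ (f * 2)) := hc
  have hq2 : p ^ (f * 2) = (p ^ f) ^ 2 := by rw [pow_mul]
  rw [hq2, glN_eq] at h6
  refine kill4_e7 hp hf hs4 hd (D := Nat.gcd 7 ((p ^ f) ^ 2 - 1) * ((p ^ f) ^ 2 - 1))
    (A := ((p ^ f) ^ 2) ^ (7 * (7 - 1) / 2) * (((p ^ f) ^ 2 - 1) * ((p ^ f) ^ 6 - 1) * ((p ^ f) ^ 10 - 1) *
      ((p ^ f) ^ 14 - 1))) (fun h => ?_) ?_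
  · rcases hs4.prime.dvd_mul.1 h with h | h
    · exact hs4.not_dvd_sub (by norm_num) (h.trans (Nat.gcd_dvd_right _ _))
    · exact hs4.not_dvd_sub (by norm_num) h
  · rw [h6]
    simp only [Finset.prod_range_succ, Finset.prod_range_zero, one_mul, ← pow_mul]
    norm_num only
    ring

end Kill

/-- **`E_7(q)`, classes 14 and 18.** -/
theorem charp_e7_1418 (hp : p.Prime) (hf : 1 ≤ f) (hg : Cond g) (hch : HasChar p g)
    (hc : den g * c = num g) (hdvd : c ∣ num (.e7 (p ^ f))) (hs1 : HT p f 14 g c) (hs2 : HT p f 18 g c) :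
    g = .psu 9 (p ^ f) ∨ g = .psu 10 (p ^ f) ∨ g = .e7 (p ^ f) := by
  obtain ⟨f₁, hf₁, hfl, hK, hY⟩ := kd_all hp hg hch hc
  obtain ⟨i, hi, hei, hfM, h2, h1, h3, hYc⟩ := compP hp hf hg hch hf₁ hfl hK hY (td_e7 hp hf hdvd)
    (by norm_num) (by norm_num) (by norm_num) (fun i hi hei s hs h5 => by
      have hi' : i ∈ [2, 6, 8, 10, 12, 14, 18] := hi
      refine hpr_e7 ?_ hs (by omega)
      simp only [List.mem_cons, List.not_mem_nil, or_false] at hi' ⊢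
      omega) hs1 hs2
  rcases elimP_e7_14_18 hg hch hi hei h2 h1 h3 hYc with ⟨rfl, q, rfl⟩ | ⟨rfl, q, rfl⟩ | ⟨rfl, q, rfl⟩
  · obtain rfl : q = p ^ f₁ := hfl
    rw [same_fld (M := 18) (by norm_num) hfM]
    exact Or.inl rfl
  · obtain rfl : q = p ^ f₁ := hfl
    rw [same_fld (M := 18) (by norm_num) hfM]
    exact Or.inr (Or.inl rfl)
  · obtain rfl : q = p ^ f₁ := hfl
    rw [same_fld (M := 18) (by norm_num) hfM]
    exact Or.inr (Or.inr rfl)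

/-- **`E_7(q)`, classes 9 and 18, and one prime of class 5.** -/
theorem charp_e7_918 (hp : p.Prime) (hf : 1 ≤ f) (hg : Cond g) (hch : HasChar p g)
    (hc : den g * c = num g) (hdvd : c ∣ num (.e7 (p ^ f))) (hs0 : ∃ s, Prim p (f * 5) s ∧ s ∣ c)
    (hs1 : HT p f 9 g c) (hs2 : HT p f 18 g c) :
    g = .e7 (p ^ f) := by
  obtain ⟨f₁, hf₁, hfl, hK, hY⟩ := kd_all hp hg hch hc
  obtain ⟨i, hi, hei, hfM, h2, h1, h3, hYc⟩ := compP1 hp hf hg hch hf₁ hfl hK hY (td_e7 hp hf hdvd)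
    (by norm_num) (by norm_num) hs0 hs2
  rcases elimP_e7_5_18 hg hch hi hei h2 h1 h3 hYc with ⟨rfl, q, rfl⟩ | ⟨rfl, q, rfl⟩ | ⟨rfl, q, rfl⟩ | ⟨rfl, q, rfl⟩
  · exfalso
    obtain rfl : q = p ^ f₁ := hfl
    exact kill_u hp hf rfl (by norm_num) (by norm_num) (same_fld (M := 18) (by norm_num) hfM) hc hs1 (by norm_num)
  · exfalso
    obtain rfl : q = p ^ f₁ := hfl
    exact kill_u hp hf rfl (by norm_num) (by norm_num) (same_fld (M := 18) (by norm_num) hfM) hc hs1 (by norm_num)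
  · exfalso
    obtain rfl : q = p ^ f₁ := hfl
    obtain rfl := same_fld (M := 18) (by norm_num) hfM
    obtain ⟨s, hsp⟩ := exists_prim (q := p) (e := f₁ * 9) hp.two_le (by omega) (by omega)
    have hs' := prim_pow hf hsp
    have h4 := hs1.mem hp rfl hs' fun h => by
      have h5 := lt_of_prim hsp
      have h6 := Nat.le_of_dvd hf h
      omega
    refine not_dvd_te6 hs' ?_
    rw [← hc]
    exact h4.mul_left _
  · obtain rfl : q = p ^ f₁ := hfl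
    rw [same_fld (M := 18) (by norm_num) hfM]

/-- **`E_7(q)`, classes 7 and 14, and one prime of class 5.** -/
theorem charp_e7_714 (hp : p.Prime) (hf : 1 ≤ f) (hg : Cond g) (hch : HasChar p g)
    (hc : den g * c = num g) (hdvd : c ∣ num (.e7 (p ^ f))) (hs0 : ∃ s, Prim p (f * 5) s ∧ s ∣ c)
    (hs1 : HT p f 7 g c) (hs2 : HT p f 14 g c) :
    g = .e7 (p ^ f) := by
  obtain ⟨f₁, hf₁, hfl, hK, hY⟩ := kd_all hp hg hch hc
  obtain ⟨i, hi, hei, hfM, h2, h1, h3, hYc⟩ := compP1 hp hf hg hch hf₁ hfl hK hY (td_e7 hp hf hdvd)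
    (by norm_num) (by norm_num) hs0 hs2
  obtain ⟨t, ht⟩ := exists_prim (q := p) (e := f * 4) hp.two_le (by omega) (by omega)
  have hs4 : Prim (p ^ f) 4 t := prim_pow hf ht
  rcases elimP_e7_5_14 hg hch hi hei h2 h1 h3 hYc with ⟨rfl, q, rfl⟩ | ⟨rfl, q, rfl⟩ | ⟨rfl, q, rfl⟩ | ⟨rfl, q, rfl⟩ |
    ⟨rfl, q, rfl⟩ | ⟨rfl, q, rfl⟩ | ⟨rfl, q, rfl⟩ | ⟨rfl, q, rfl⟩ | ⟨rfl, q, rfl⟩ | ⟨rfl, q, rfl⟩
  · exfalso
    obtain rfl : q = p ^ f₁ := hfl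
    have h5 : f₁ * 7 = f * 14 := hfM
    obtain rfl : f₁ = f * 2 := by omega
    exact kill4_e7_psl hp hf hs4 hdvd hc
  · exfalso
    obtain rfl : q = p ^ f₁ := hfl
    have h5 : f₁ * (2 * 7) = f * 14 := hfM
    obtain rfl : f₁ = f := by omega
    exact kill4_e7_psp hp hf hs4 hdvd hc
  · exfalso
    obtain rfl : q = p ^ f₁ := hfl
    have h5 : f₁ * (2 * 7) = f * 14 := hfM
    obtain rfl : f₁ = f := by omega
    exact kill4_e7_oodd hp hf hs4 hdvd hc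
  · exfalso
    obtain rfl : q = p ^ f₁ := hfl
    exact kill_u hp hf rfl (by norm_num) (by norm_num) (same_fld (M := 14) (by norm_num) hfM) hc hs1 (by norm_num)
  · exfalso
    obtain rfl : q = p ^ f₁ := hfl
    exact kill_u hp hf rfl (by norm_num) (by norm_num) (same_fld (M := 14) (by norm_num) hfM) hc hs1 (by norm_num)
  · exfalso
    obtain rfl : q = p ^ f₁ := hfl
    have h5 : f₁ * (2 * (8 - 1)) = f * 14 := hfM
    obtain rfl : f₁ = f := by omega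
    exact kill4_e7_oplus hp hf hs4 hdvd hc
  · exfalso
    obtain rfl : q = p ^ f₁ := hfl
    exact kill_om hp hf rfl (by norm_num) (by norm_num) (same_fld (M := 14) (by norm_num) hfM) hc hs1 (by norm_num)
  · exfalso
    obtain rfl : q = p ^ f₁ := hfl
    exact kill_u hp hf rfl (by norm_num) (by norm_num) (same_fld (M := 18) (by norm_num) hfM) hc hs1 (by norm_num)
  · exfalso
    obtain rfl : q = p ^ f₁ := hfl
    exact kill_u hp hf rfl (by norm_num) (by norm_num) (same_fld (M := 18) (by norm_num) hfM) hc hs1 (by norm_num)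
  · obtain rfl : q = p ^ f₁ := hfl
    rw [same_fld (M := 18) (by norm_num) hfM]

end Cfsg.Agent.H325.Same
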