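import Mathlib
import Cfsg.Agent.H325.Same.ExcPair8

/-!
# Simple groups of Lie type in characteristic `p` containing two classes of tori of `E_7(q)`, `E_8(q)` (helper325)

`E_8`: {24,30}, {20,30}; `E_7`: {14,18}, {9,18} and a prime of class 5, {7,14} and a prime of class 5.
-/

set_option autoImplicit false
set_option linter.unreachableTactic false
set_option linter.unusedTactic false
set_option maxHeartbeats 4000000

namespace Cfsg.Agent.H325.Same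

open Cfsg.Agent.OrdDiv Cfsg.Agent.H436 Cfsg.Agent.H915.GN Cfsg.Agent.H264.GN Cfsg.Agent.H264.FKS

variable {p f c : ℕ} {g : Grp}

theorem elimP_e8_24_30 (hg : Cond g) (hch : HasChar p g) {i : ℕ} (hi : i ∈ [2, 8, 12, 14, 18, 20, 24, 30]) (hei : 30 ≤ i)
    (h2 : ag g * i ≤ 120 * Mg g) (h1 : ∃ x, Xg g x ∧ 24 * Mg g ∣ i * x) (h3 : ∃ x, Xg g x ∧ 30 * Mg g ∣ i * x)
    (hY : ∀ k, (k = 4 ∨ k = 5 ∨ 7 ≤ k) → Yg g k → ∃ j, j ∈ [2, 8, 12, 14, 18, 20, 24, 30] ∧ i * k ∣ Mg g * j) :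
    (i = 30 ∧ ∃ q, g = .psl 5 q) ∨ (i = 30 ∧ ∃ q, g = .psp 5 q) ∨ (i = 30 ∧ ∃ q, g = .oodd 5 q) ∨ (i = 30 ∧ ∃ q, g = .oplus 6 q) ∨ (i = 30 ∧ ∃ q, g = .ominus 5 q) ∨ (i = 30 ∧ ∃ q, g = .e8 q) := by
  obtain ⟨x, hx, hxd⟩ := h1
  obtain ⟨y, hy, hyd⟩ := h3
  have hi2 : i = 30 := by
    simp only [List.mem_cons, List.not_mem_nil, or_false] at hi
    omega
  clear hi hei
  rcases hi2 with rfl
  · have h2' : 2 * ag g ≤ 8 * Mg g := by omega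
    clear h2
    cases g
    case psl m q =>
      obtain ⟨hm, -, -⟩ := hg
      have hb := bd_psl (ρ := 8) (by omega) h2'
      have hx' : 1 ≤ x ∧ x ≤ m := hx
      have hy' : 1 ≤ y ∧ y ≤ m := hy
      have hxd' : 24 * m ∣ 30 * x := hxd
      have hyd' : 30 * m ∣ 30 * y := hyd
      clear hx hy hxd hyd h2' hch hY
      interval_cases m <;> first | omega | exact Or.inl ⟨rfl, q, rfl⟩ | exact Or.inr (Or.inl ⟨rfl, q, rfl⟩) | exact Or.inr (Or.inr (Or.inl ⟨rfl, q, rfl⟩)) | exact Or.inr (Or.inr (Or.inr (Or.inl ⟨rfl, q, rfl⟩))) | exact Or.inr (Or.inr (Or.inr (Or.inr (Or.inl ⟨rfl, q, rfl⟩)))) | exact Or.inr (Or.inr (Or.inr (Or.inr (Or.inr (⟨rfl, q, rfl⟩)))))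
    case psp m q =>
      obtain ⟨hm, -, -⟩ := hg
      have hb := bd_psp (ρ := 8) (by omega) h2'
      have hx' : 1 ≤ x ∧ x ≤ 2 * m ∧ 2 ∣ x := hx
      have hy' : 1 ≤ y ∧ y ≤ 2 * m ∧ 2 ∣ y := hy
      have hxd' : 24 * (2 * m) ∣ 30 * x := hxd
      have hyd' : 30 * (2 * m) ∣ 30 * y := hyd
      clear hx hy hxd hyd h2' hch hY
      interval_cases m <;> first | omega | exact Or.inl ⟨rfl, q, rfl⟩ | exact Or.inr (Or.inl ⟨rfl, q, rfl⟩) | exact Or.inr (Or.inr (Or.inl ⟨rfl, q, rfl⟩)) | exact Or.inr (Or.inr (Or.inr (Or.inl ⟨rfl, q, rfl⟩))) | exact Or.inr (Or.inr (Or.inr (Or.inr (Or.inl ⟨rfl, q, rfl⟩)))) | exact Or.inr (Or.inr (Or.inr (Or.inr (Or.inr (⟨rfl, q, rfl⟩)))))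
    case oodd m q =>
      obtain ⟨hm, -, -⟩ := hg
      have hb := bd_psp (ρ := 8) (by omega) h2'
      have hx' : 1 ≤ x ∧ x ≤ 2 * m ∧ 2 ∣ x := hx
      have hy' : 1 ≤ y ∧ y ≤ 2 * m ∧ 2 ∣ y := hy
      have hxd' : 24 * (2 * m) ∣ 30 * x := hxd
      have hyd' : 30 * (2 * m) ∣ 30 * y := hyd
      clear hx hy hxd hyd h2' hch hY
      interval_cases m <;> first | omega | exact Or.inl ⟨rfl, q, rfl⟩ | exact Or.inr (Or.inl ⟨rfl, q, rfl⟩) | exact Or.inr (Or.inr (Or.inl ⟨rfl, q, rfl⟩)) | exact Or.inr (Or.inr (Or.inr (Or.inl ⟨rfl, q, rfl⟩))) | exact Or.inr (Or.inr (Or.inr (Or.inr (Or.inl ⟨rfl, q, rfl⟩)))) | exact Or.inr (Or.inr (Or.inr (Or.inr (Or.inr (⟨rfl, q, rfl⟩)))))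
    case psu m q =>
      obtain ⟨hm, -, -⟩ := hg
      have hb := bd_psu (ρ := 8) hm h2'
      have hx' : (1 ≤ x ∧ x ≤ m ∧ 2 ∣ x) ∨ ∃ j, x = 2 * j ∧ j ≤ m ∧ j % 2 = 1 := hx
      have hy' : (1 ≤ y ∧ y ≤ m ∧ 2 ∣ y) ∨ ∃ j, y = 2 * j ∧ j ≤ m ∧ j % 2 = 1 := hy
      obtain ⟨k, hk⟩ : ∃ k, k = (if m % 2 = 0 then m - 1 else m) := ⟨_, rfl⟩
      have hk' : (m % 2 = 0 ∧ k = m - 1) ∨ (m % 2 = 1 ∧ k = m) := by
        rw [hk]
        split_ifs <;> omega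
      have hM : Mg (.psu m q) = 2 * k := by rw [hk]; rfl
      have hxd' : 24 * (2 * k) ∣ 30 * x := hM ▸ hxd
      have hyd' : 30 * (2 * k) ∣ 30 * y := hM ▸ hyd
      clear hx hy hxd hyd h2' hch hY hM hk
      rcases hk' with ⟨hk1, hk2⟩ | ⟨hk1, hk2⟩ <;> rcases hx' with hx' | ⟨j, rfl, hx'⟩ <;>
        rcases hy' with hy' | ⟨l, rfl, hy'⟩ <;> interval_cases m <;> subst hk2 <;> first | omega | exact Or.inl ⟨rfl, q, rfl⟩ | exact Or.inr (Or.inl ⟨rfl, q, rfl⟩) | exact Or.inr (Or.inr (Or.inl ⟨rfl, q, rfl⟩)) | exact Or.inr (Or.inr (Or.inr (Or.inl ⟨rfl, q, rfl⟩))) | exact Or.inr (Or.inr (Or.inr (Or.inr (Or.inl ⟨rfl, q, rfl⟩)))) | exact Or.inr (Or.inr (Or.inr (Or.inr (Or.inr (⟨rfl, q, rfl⟩)))))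
    case oplus m q =>
      obtain ⟨hm, -⟩ := hg
      have hb := bd_oplus (ρ := 8) (by omega) h2'
      have hx' : 1 ≤ x ∧ x ≤ 2 * (m - 1) ∧ (2 ∣ x ∨ x = m) := hx
      have hy' : 1 ≤ y ∧ y ≤ 2 * (m - 1) ∧ (2 ∣ y ∨ y = m) := hy
      have hxd' : 24 * (2 * (m - 1)) ∣ 30 * x := hxd
      have hyd' : 30 * (2 * (m - 1)) ∣ 30 * y := hyd
      clear hx hy hxd hyd h2' hch hY
      interval_cases m <;> first | omega | exact Or.inl ⟨rfl, q, rfl⟩ | exact Or.inr (Or.inl ⟨rfl, q, rfl⟩) | exact Or.inr (Or.inr (Or.inl ⟨rfl, q, rfl⟩)) | exact Or.inr (Or.inr (Or.inr (Or.inl ⟨rfl, q, rfl⟩))) | exact Or.inr (Or.inr (Or.inr (Or.inr (Or.inl ⟨rfl, q, rfl⟩)))) | exact Or.inr (Or.inr (Or.inr (Or.inr (Or.inr (⟨rfl, q, rfl⟩)))))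
    case ominus m q =>
      obtain ⟨hm, -⟩ := hg
      have hb := bd_ominus (ρ := 8) (by omega) h2'
      have hx' : 1 ≤ x ∧ x ≤ 2 * m ∧ 2 ∣ x := hx
      have hy' : 1 ≤ y ∧ y ≤ 2 * m ∧ 2 ∣ y := hy
      have hxd' : 24 * (2 * m) ∣ 30 * x := hxd
      have hyd' : 30 * (2 * m) ∣ 30 * y := hyd
      clear hx hy hxd hyd h2' hch hY
      interval_cases m <;> first | omega | exact Or.inl ⟨rfl, q, rfl⟩ | exact Or.inr (Or.inl ⟨rfl, q, rfl⟩) | exact Or.inr (Or.inr (Or.inl ⟨rfl, q, rfl⟩)) | exact Or.inr (Or.inr (Or.inr (Or.inl ⟨rfl, q, rfl⟩))) | exact Or.inr (Or.inr (Or.inr (Or.inr (Or.inl ⟨rfl, q, rfl⟩)))) | exact Or.inr (Or.inr (Or.inr (Or.inr (Or.inr (⟨rfl, q, rfl⟩)))))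
    case g2 q =>
      have hx' : x ∈ [2, 6] := hx
      have hy' : y ∈ [2, 6] := hy
      have hxd' : 24 * 6 ∣ 30 * x := hxd
      have hyd' : 30 * 6 ∣ 30 * y := hyd
      have h4 : 2 * 6 ≤ 8 * 6 := h2'
      simp only [List.mem_cons, List.not_mem_nil, or_false] at hx' hy'
      clear hx hy hxd hyd h2' hch hY
      first | omega | exact Or.inl ⟨rfl, q, rfl⟩ | exact Or.inr (Or.inl ⟨rfl, q, rfl⟩) | exact Or.inr (Or.inr (Or.inl ⟨rfl, q, rfl⟩)) | exact Or.inr (Or.inr (Or.inr (Or.inl ⟨rfl, q, rfl⟩))) | exact Or.inr (Or.inr (Or.inr (Or.inr (Or.inl ⟨rfl, q, rfl⟩)))) | exact Or.inr (Or.inr (Or.inr (Or.inr (Or.inr (⟨rfl, q, rfl⟩)))))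
    case f4 q =>
      have hx' : x ∈ [2, 6, 8, 12] := hx
      have hy' : y ∈ [2, 6, 8, 12] := hy
      have hxd' : 24 * 12 ∣ 30 * x := hxd
      have hyd' : 30 * 12 ∣ 30 * y := hyd
      have h4 : 2 * 24 ≤ 8 * 12 := h2'
      simp only [List.mem_cons, List.not_mem_nil, or_false] at hx' hy'
      clear hx hy hxd hyd h2' hch hY
      first | omega | exact Or.inl ⟨rfl, q, rfl⟩ | exact Or.inr (Or.inl ⟨rfl, q, rfl⟩) | exact Or.inr (Or.inr (Or.inl ⟨rfl, q, rfl⟩)) | exact Or.inr (Or.inr (Or.inr (Or.inl ⟨rfl, q, rfl⟩))) | exact Or.inr (Or.inr (Or.inr (Or.inr (Or.inl ⟨rfl, q, rfl⟩)))) | exact Or.inr (Or.inr (Or.inr (Or.inr (Or.inr (⟨rfl, q, rfl⟩)))))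
    case e6 q =>
      have hx' : x ∈ [2, 5, 6, 8, 9, 12] := hx
      have hy' : y ∈ [2, 5, 6, 8, 9, 12] := hy
      have hxd' : 24 * 12 ∣ 30 * x := hxd
      have hyd' : 30 * 12 ∣ 30 * y := hyd
      have h4 : 2 * 36 ≤ 8 * 12 := h2'
      simp only [List.mem_cons, List.not_mem_nil, or_false] at hx' hy'
      clear hx hy hxd hyd h2' hch hY
      first | omega | exact Or.inl ⟨rfl, q, rfl⟩ | exact Or.inr (Or.inl ⟨rfl, q, rfl⟩) | exact Or.inr (Or.inr (Or.inl ⟨rfl, q, rfl⟩)) | exact Or.inr (Or.inr (Or.inr (Or.inl ⟨rfl, q, rfl⟩))) | exact Or.inr (Or.inr (Or.inr (Or.inr (Or.inl ⟨rfl, q, rfl⟩)))) | exact Or.inr (Or.inr (Or.inr (Or.inr (Or.inr (⟨rfl, q, rfl⟩)))))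
    case e7 q =>
      have hx' : x ∈ [2, 6, 8, 10, 12, 14, 18] := hx
      have hy' : y ∈ [2, 6, 8, 10, 12, 14, 18] := hy
      have hxd' : 24 * 18 ∣ 30 * x := hxd
      have hyd' : 30 * 18 ∣ 30 * y := hyd
      have h4 : 2 * 63 ≤ 8 * 18 := h2'
      simp only [List.mem_cons, List.not_mem_nil, or_false] at hx' hy'
      clear hx hy hxd hyd h2' hch hY
      first | omega | exact Or.inl ⟨rfl, q, rfl⟩ | exact Or.inr (Or.inl ⟨rfl, q, rfl⟩) | exact Or.inr (Or.inr (Or.inl ⟨rfl, q, rfl⟩)) | exact Or.inr (Or.inr (Or.inr (Or.inl ⟨rfl, q, rfl⟩))) | exact Or.inr (Or.inr (Or.inr (Or.inr (Or.inl ⟨rfl, q, rfl⟩)))) | exact Or.inr (Or.inr (Or.inr (Or.inr (Or.inr (⟨rfl, q, rfl⟩)))))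
    case e8 q =>
      have hx' : x ∈ [2, 8, 12, 14, 18, 20, 24, 30] := hx
      have hy' : y ∈ [2, 8, 12, 14, 18, 20, 24, 30] := hy
      have hxd' : 24 * 30 ∣ 30 * x := hxd
      have hyd' : 30 * 30 ∣ 30 * y := hyd
      have h4 : 2 * 120 ≤ 8 * 30 := h2'
      simp only [List.mem_cons, List.not_mem_nil, or_false] at hx' hy'
      clear hx hy hxd hyd h2' hch hY
      first | omega | exact Or.inl ⟨rfl, q, rfl⟩ | exact Or.inr (Or.inl ⟨rfl, q, rfl⟩) | exact Or.inr (Or.inr (Or.inl ⟨rfl, q, rfl⟩)) | exact Or.inr (Or.inr (Or.inr (Or.inl ⟨rfl, q, rfl⟩))) | exact Or.inr (Or.inr (Or.inr (Or.inr (Or.inl ⟨rfl, q, rfl⟩)))) | exact Or.inr (Or.inr (Or.inr (Or.inr (Or.inr (⟨rfl, q, rfl⟩)))))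
    case te6 q =>
      have hx' : x ∈ [2, 10, 6, 8, 18, 12] := hx
      have hy' : y ∈ [2, 10, 6, 8, 18, 12] := hy
      have hxd' : 24 * 18 ∣ 30 * x := hxd
      have hyd' : 30 * 18 ∣ 30 * y := hyd
      have h4 : 2 * 36 ≤ 8 * 18 := h2'
      simp only [List.mem_cons, List.not_mem_nil, or_false] at hx' hy'
      clear hx hy hxd hyd h2' hch hY
      first | omega | exact Or.inl ⟨rfl, q, rfl⟩ | exact Or.inr (Or.inl ⟨rfl, q, rfl⟩) | exact Or.inr (Or.inr (Or.inl ⟨rfl, q, rfl⟩)) | exact Or.inr (Or.inr (Or.inr (Or.inl ⟨rfl, q, rfl⟩))) | exact Or.inr (Or.inr (Or.inr (Or.inr (Or.inl ⟨rfl, q, rfl⟩)))) | exact Or.inr (Or.inr (Or.inr (Or.inr (Or.inr (⟨rfl, q, rfl⟩)))))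
    case td4 q =>
      have hx' : x ∈ [2, 6, 12] := hx
      have hy' : y ∈ [2, 6, 12] := hy
      have hxd' : 24 * 12 ∣ 30 * x := hxd
      have hyd' : 30 * 12 ∣ 30 * y := hyd
      have h4 : 2 * 12 ≤ 8 * 12 := h2'
      simp only [List.mem_cons, List.not_mem_nil, or_false] at hx' hy'
      clear hx hy hxd hyd h2' hch hY
      first | omega | exact Or.inl ⟨rfl, q, rfl⟩ | exact Or.inr (Or.inl ⟨rfl, q, rfl⟩) | exact Or.inr (Or.inr (Or.inl ⟨rfl, q, rfl⟩)) | exact Or.inr (Or.inr (Or.inr (Or.inl ⟨rfl, q, rfl⟩))) | exact Or.inr (Or.inr (Or.inr (Or.inr (Or.inl ⟨rfl, q, rfl⟩)))) | exact Or.inr (Or.inr (Or.inr (Or.inr (Or.inr (⟨rfl, q, rfl⟩)))))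
    case sz q =>
      have hx' : x ∈ [1, 4] := hx
      have hy' : y ∈ [1, 4] := hy
      have hxd' : 24 * 4 ∣ 30 * x := hxd
      have hyd' : 30 * 4 ∣ 30 * y := hyd
      have h4 : 2 * 2 ≤ 8 * 4 := h2'
      simp only [List.mem_cons, List.not_mem_nil, or_false] at hx' hy'
      clear hx hy hxd hyd h2' hch hY
      first | omega | exact Or.inl ⟨rfl, q, rfl⟩ | exact Or.inr (Or.inl ⟨rfl, q, rfl⟩) | exact Or.inr (Or.inr (Or.inl ⟨rfl, q, rfl⟩)) | exact Or.inr (Or.inr (Or.inr (Or.inl ⟨rfl, q, rfl⟩))) | exact Or.inr (Or.inr (Or.inr (Or.inr (Or.inl ⟨rfl, q, rfl⟩)))) | exact Or.inr (Or.inr (Or.inr (Or.inr (Or.inr (⟨rfl, q, rfl⟩)))))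
    case ree q =>
      have hx' : x ∈ [1, 6] := hx
      have hy' : y ∈ [1, 6] := hy
      have hxd' : 24 * 6 ∣ 30 * x := hxd
      have hyd' : 30 * 6 ∣ 30 * y := hyd
      have h4 : 2 * 3 ≤ 8 * 6 := h2'
      simp only [List.mem_cons, List.not_mem_nil, or_false] at hx' hy'
      clear hx hy hxd hyd h2' hch hY
      first | omega | exact Or.inl ⟨rfl, q, rfl⟩ | exact Or.inr (Or.inl ⟨rfl, q, rfl⟩) | exact Or.inr (Or.inr (Or.inl ⟨rfl, q, rfl⟩)) | exact Or.inr (Or.inr (Or.inr (Or.inl ⟨rfl, q, rfl⟩))) | exact Or.inr (Or.inr (Or.inr (Or.inr (Or.inl ⟨rfl, q, rfl⟩)))) | exact Or.inr (Or.inr (Or.inr (Or.inr (Or.inr (⟨rfl, q, rfl⟩)))))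
    case tf4 q =>
      have hx' : x ∈ [1, 6, 4, 12] := hx
      have hy' : y ∈ [1, 6, 4, 12] := hy
      have hxd' : 24 * 12 ∣ 30 * x := hxd
      have hyd' : 30 * 12 ∣ 30 * y := hyd
      have h4 : 2 * 12 ≤ 8 * 12 := h2'
      simp only [List.mem_cons, List.not_mem_nil, or_false] at hx' hy'
      clear hx hy hxd hyd h2' hch hY
      first | omega | exact Or.inl ⟨rfl, q, rfl⟩ | exact Or.inr (Or.inl ⟨rfl, q, rfl⟩) | exact Or.inr (Or.inr (Or.inl ⟨rfl, q, rfl⟩)) | exact Or.inr (Or.inr (Or.inr (Or.inl ⟨rfl, q, rfl⟩))) | exact Or.inr (Or.inr (Or.inr (Or.inr (Or.inl ⟨rfl, q, rfl⟩)))) | exact Or.inr (Or.inr (Or.inr (Or.inr (Or.inr (⟨rfl, q, rfl⟩)))))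
    all_goals exact absurd hch not_false

theorem elimP_e8_20_30 (hg : Cond g) (hch : HasChar p g) {i : ℕ} (hi : i ∈ [2, 8, 12, 14, 18, 20, 24, 30]) (hei : 30 ≤ i)
    (h2 : ag g * i ≤ 120 * Mg g) (h1 : ∃ x, Xg g x ∧ 20 * Mg g ∣ i * x) (h3 : ∃ x, Xg g x ∧ 30 * Mg g ∣ i * x)
    (hY : ∀ k, (k = 4 ∨ k = 5 ∨ 7 ≤ k) → Yg g k → ∃ j, j ∈ [2, 8, 12, 14, 18, 20, 24, 30] ∧ i * k ∣ Mg g * j) :
    (i = 30 ∧ ∃ q, g = .psl 3 q) ∨ (i = 30 ∧ ∃ q, g = .psp 3 q) ∨ (i = 30 ∧ ∃ q, g = .oodd 3 q) ∨ (i = 30 ∧ ∃ q, g = .psu 4 q) ∨ (i = 30 ∧ ∃ q, g = .oplus 4 q) ∨ (i = 30 ∧ ∃ q, g = .f4 q) ∨ (i = 30 ∧ ∃ q, g = .e8 q) := by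
  obtain ⟨x, hx, hxd⟩ := h1
  obtain ⟨y, hy, hyd⟩ := h3
  have hi2 : i = 30 := by
    simp only [List.mem_cons, List.not_mem_nil, or_false] at hi
    omega
  clear hi hei
  rcases hi2 with rfl
  · have h2' : 2 * ag g ≤ 8 * Mg g := by omega
    clear h2
    cases g
    case psl m q =>
      obtain ⟨hm, -, -⟩ := hg
      have hb := bd_psl (ρ := 8) (by omega) h2'
      have hx' : 1 ≤ x ∧ x ≤ m := hx
      have hy' : 1 ≤ y ∧ y ≤ m := hy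
      have hxd' : 20 * m ∣ 30 * x := hxd
      have hyd' : 30 * m ∣ 30 * y := hyd
      have hY5 : 5 ≤ m → 150 ∣ m * 2 ∨ 150 ∣ m * 8 ∨ 150 ∣ m * 12 ∨ 150 ∣ m * 14 ∨ 150 ∣ m * 18 ∨ 150 ∣ m * 20 ∨ 150 ∣ m * 24 ∨ 150 ∣ m * 30 := by
        intro h
        obtain ⟨j, hj, hjd⟩ := hY 5 (by norm_num) (show 2 ≤ 5 ∧ 5 ≤ m from ⟨by norm_num, h⟩)
        have hjd' : 30 * 5 ∣ m * j := hjd
        simp only [List.mem_cons, List.not_mem_nil, or_false] at hj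
        norm_num only at hjd'
        rcases hj with rfl | rfl | rfl | rfl | rfl | rfl | rfl | rfl <;> simp only [hjd', true_or, or_true]
      clear hx hy hxd hyd h2' hch hY
      interval_cases m <;> first | omega | exact Or.inl ⟨rfl, q, rfl⟩ | exact Or.inr (Or.inl ⟨rfl, q, rfl⟩) | exact Or.inr (Or.inr (Or.inl ⟨rfl, q, rfl⟩)) | exact Or.inr (Or.inr (Or.inr (Or.inl ⟨rfl, q, rfl⟩))) | exact Or.inr (Or.inr (Or.inr (Or.inr (Or.inl ⟨rfl, q, rfl⟩)))) | exact Or.inr (Or.inr (Or.inr (Or.inr (Or.inr (Or.inl ⟨rfl, q, rfl⟩))))) | exact Or.inr (Or.inr (Or.inr (Or.inr (Or.inr (Or.inr (⟨rfl, q, rfl⟩))))))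
    case psp m q =>
      obtain ⟨hm, -, -⟩ := hg
      have hb := bd_psp (ρ := 8) (by omega) h2'
      have hx' : 1 ≤ x ∧ x ≤ 2 * m ∧ 2 ∣ x := hx
      have hy' : 1 ≤ y ∧ y ≤ 2 * m ∧ 2 ∣ y := hy
      have hxd' : 20 * (2 * m) ∣ 30 * x := hxd
      have hyd' : 30 * (2 * m) ∣ 30 * y := hyd
      have hY10 : 10 ≤ 2 * m → 300 ∣ (2 * m) * 2 ∨ 300 ∣ (2 * m) * 8 ∨ 300 ∣ (2 * m) * 12 ∨ 300 ∣ (2 * m) * 14 ∨ 300 ∣ (2 * m) * 18 ∨ 300 ∣ (2 * m) * 20 ∨ 300 ∣ (2 * m) * 24 ∨ 300 ∣ (2 * m) * 30 := by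
        intro h
        obtain ⟨j, hj, hjd⟩ := hY 10 (by norm_num) (show 1 ≤ 10 ∧ 10 ≤ 2 * m ∧ 2 ∣ 10 from ⟨by norm_num, h, by norm_num⟩)
        have hjd' : 30 * 10 ∣ (2 * m) * j := hjd
        simp only [List.mem_cons, List.not_mem_nil, or_false] at hj
        norm_num only at hjd'
        rcases hj with rfl | rfl | rfl | rfl | rfl | rfl | rfl | rfl <;> simp only [hjd', true_or, or_true]
      clear hx hy hxd hyd h2' hch hY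
      interval_cases m <;> first | omega | exact Or.inl ⟨rfl, q, rfl⟩ | exact Or.inr (Or.inl ⟨rfl, q, rfl⟩) | exact Or.inr (Or.inr (Or.inl ⟨rfl, q, rfl⟩)) | exact Or.inr (Or.inr (Or.inr (Or.inl ⟨rfl, q, rfl⟩))) | exact Or.inr (Or.inr (Or.inr (Or.inr (Or.inl ⟨rfl, q, rfl⟩)))) | exact Or.inr (Or.inr (Or.inr (Or.inr (Or.inr (Or.inl ⟨rfl, q, rfl⟩))))) | exact Or.inr (Or.inr (Or.inr (Or.inr (Or.inr (Or.inr (⟨rfl, q, rfl⟩))))))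
    case oodd m q =>
      obtain ⟨hm, -, -⟩ := hg
      have hb := bd_psp (ρ := 8) (by omega) h2'
      have hx' : 1 ≤ x ∧ x ≤ 2 * m ∧ 2 ∣ x := hx
      have hy' : 1 ≤ y ∧ y ≤ 2 * m ∧ 2 ∣ y := hy
      have hxd' : 20 * (2 * m) ∣ 30 * x := hxd
      have hyd' : 30 * (2 * m) ∣ 30 * y := hyd
      have hY10 : 10 ≤ 2 * m → 300 ∣ (2 * m) * 2 ∨ 300 ∣ (2 * m) * 8 ∨ 300 ∣ (2 * m) * 12 ∨ 300 ∣ (2 * m) * 14 ∨ 300 ∣ (2 * m) * 18 ∨ 300 ∣ (2 * m) * 20 ∨ 300 ∣ (2 * m) * 24 ∨ 300 ∣ (2 * m) * 30 := by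
        intro h
        obtain ⟨j, hj, hjd⟩ := hY 10 (by norm_num) (show 1 ≤ 10 ∧ 10 ≤ 2 * m ∧ 2 ∣ 10 from ⟨by norm_num, h, by norm_num⟩)
        have hjd' : 30 * 10 ∣ (2 * m) * j := hjd
        simp only [List.mem_cons, List.not_mem_nil, or_false] at hj
        norm_num only at hjd'
        rcases hj with rfl | rfl | rfl | rfl | rfl | rfl | rfl | rfl <;> simp only [hjd', true_or, or_true]
      clear hx hy hxd hyd h2' hch hY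
      interval_cases m <;> first | omega | exact Or.inl ⟨rfl, q, rfl⟩ | exact Or.inr (Or.inl ⟨rfl, q, rfl⟩) | exact Or.inr (Or.inr (Or.inl ⟨rfl, q, rfl⟩)) | exact Or.inr (Or.inr (Or.inr (Or.inl ⟨rfl, q, rfl⟩))) | exact Or.inr (Or.inr (Or.inr (Or.inr (Or.inl ⟨rfl, q, rfl⟩)))) | exact Or.inr (Or.inr (Or.inr (Or.inr (Or.inr (Or.inl ⟨rfl, q, rfl⟩))))) | exact Or.inr (Or.inr (Or.inr (Or.inr (Or.inr (Or.inr (⟨rfl, q, rfl⟩))))))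
    case psu m q =>
      obtain ⟨hm, -, -⟩ := hg
      have hb := bd_psu (ρ := 8) hm h2'
      have hx' : (1 ≤ x ∧ x ≤ m ∧ 2 ∣ x) ∨ ∃ j, x = 2 * j ∧ j ≤ m ∧ j % 2 = 1 := hx
      have hy' : (1 ≤ y ∧ y ≤ m ∧ 2 ∣ y) ∨ ∃ j, y = 2 * j ∧ j ≤ m ∧ j % 2 = 1 := hy
      obtain ⟨k, hk⟩ : ∃ k, k = (if m % 2 = 0 then m - 1 else m) := ⟨_, rfl⟩
      have hk' : (m % 2 = 0 ∧ k = m - 1) ∨ (m % 2 = 1 ∧ k = m) := by
        rw [hk]
        split_ifs <;> omega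
      have hM : Mg (.psu m q) = 2 * k := by rw [hk]; rfl
      have hxd' : 20 * (2 * k) ∣ 30 * x := hM ▸ hxd
      have hyd' : 30 * (2 * k) ∣ 30 * y := hM ▸ hyd
      clear hx hy hxd hyd h2' hch hY hM hk
      rcases hk' with ⟨hk1, hk2⟩ | ⟨hk1, hk2⟩ <;> rcases hx' with hx' | ⟨j, rfl, hx'⟩ <;>
        rcases hy' with hy' | ⟨l, rfl, hy'⟩ <;> interval_cases m <;> subst hk2 <;> first | omega | exact Or.inl ⟨rfl, q, rfl⟩ | exact Or.inr (Or.inl ⟨rfl, q, rfl⟩) | exact Or.inr (Or.inr (Or.inl ⟨rfl, q, rfl⟩)) | exact Or.inr (Or.inr (Or.inr (Or.inl ⟨rfl, q, rfl⟩))) | exact Or.inr (Or.inr (Or.inr (Or.inr (Or.inl ⟨rfl, q, rfl⟩)))) | exact Or.inr (Or.inr (Or.inr (Or.inr (Or.inr (Or.inl ⟨rfl, q, rfl⟩))))) | exact Or.inr (Or.inr (Or.inr (Or.inr (Or.inr (Or.inr (⟨rfl, q, rfl⟩))))))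
    case oplus m q =>
      obtain ⟨hm, -⟩ := hg
      have hb := bd_oplus (ρ := 8) (by omega) h2'
      have hx' : 1 ≤ x ∧ x ≤ 2 * (m - 1) ∧ (2 ∣ x ∨ x = m) := hx
      have hy' : 1 ≤ y ∧ y ≤ 2 * (m - 1) ∧ (2 ∣ y ∨ y = m) := hy
      have hxd' : 20 * (2 * (m - 1)) ∣ 30 * x := hxd
      have hyd' : 30 * (2 * (m - 1)) ∣ 30 * y := hyd
      have hY10 : 10 ≤ 2 * (m - 1) → 300 ∣ (2 * (m - 1)) * 2 ∨ 300 ∣ (2 * (m - 1)) * 8 ∨ 300 ∣ (2 * (m - 1)) * 12 ∨ 300 ∣ (2 * (m - 1)) * 14 ∨ 300 ∣ (2 * (m - 1)) * 18 ∨ 300 ∣ (2 * (m - 1)) * 20 ∨ 300 ∣ (2 * (m - 1)) * 24 ∨ 300 ∣ (2 * (m - 1)) * 30 := by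
        intro h
        obtain ⟨j, hj, hjd⟩ := hY 10 (by norm_num) (show 4 ≤ 10 ∧ 10 ≤ 2 * (m - 1) ∧ 2 ∣ 10 from ⟨by norm_num, h, by norm_num⟩)
        have hjd' : 30 * 10 ∣ (2 * (m - 1)) * j := hjd
        simp only [List.mem_cons, List.not_mem_nil, or_false] at hj
        norm_num only at hjd'
        rcases hj with rfl | rfl | rfl | rfl | rfl | rfl | rfl | rfl <;> simp only [hjd', true_or, or_true]
      clear hx hy hxd hyd h2' hch hY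
      interval_cases m <;> first | omega | exact Or.inl ⟨rfl, q, rfl⟩ | exact Or.inr (Or.inl ⟨rfl, q, rfl⟩) | exact Or.inr (Or.inr (Or.inl ⟨rfl, q, rfl⟩)) | exact Or.inr (Or.inr (Or.inr (Or.inl ⟨rfl, q, rfl⟩))) | exact Or.inr (Or.inr (Or.inr (Or.inr (Or.inl ⟨rfl, q, rfl⟩)))) | exact Or.inr (Or.inr (Or.inr (Or.inr (Or.inr (Or.inl ⟨rfl, q, rfl⟩))))) | exact Or.inr (Or.inr (Or.inr (Or.inr (Or.inr (Or.inr (⟨rfl, q, rfl⟩))))))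
    case ominus m q =>
      obtain ⟨hm, -⟩ := hg
      have hb := bd_ominus (ρ := 8) (by omega) h2'
      have hx' : 1 ≤ x ∧ x ≤ 2 * m ∧ 2 ∣ x := hx
      have hy' : 1 ≤ y ∧ y ≤ 2 * m ∧ 2 ∣ y := hy
      have hxd' : 20 * (2 * m) ∣ 30 * x := hxd
      have hyd' : 30 * (2 * m) ∣ 30 * y := hyd
      have hY10 : 10 ≤ 2 * m → 300 ∣ (2 * m) * 2 ∨ 300 ∣ (2 * m) * 8 ∨ 300 ∣ (2 * m) * 12 ∨ 300 ∣ (2 * m) * 14 ∨ 300 ∣ (2 * m) * 18 ∨ 300 ∣ (2 * m) * 20 ∨ 300 ∣ (2 * m) * 24 ∨ 300 ∣ (2 * m) * 30 := by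
        intro h
        obtain ⟨j, hj, hjd⟩ := hY 10 (by norm_num) (show 4 ≤ 10 ∧ 10 ≤ 2 * m ∧ 2 ∣ 10 from ⟨by norm_num, h, by norm_num⟩)
        have hjd' : 30 * 10 ∣ (2 * m) * j := hjd
        simp only [List.mem_cons, List.not_mem_nil, or_false] at hj
        norm_num only at hjd'
        rcases hj with rfl | rfl | rfl | rfl | rfl | rfl | rfl | rfl <;> simp only [hjd', true_or, or_true]
      clear hx hy hxd hyd h2' hch hY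
      interval_cases m <;> first | omega | exact Or.inl ⟨rfl, q, rfl⟩ | exact Or.inr (Or.inl ⟨rfl, q, rfl⟩) | exact Or.inr (Or.inr (Or.inl ⟨rfl, q, rfl⟩)) | exact Or.inr (Or.inr (Or.inr (Or.inl ⟨rfl, q, rfl⟩))) | exact Or.inr (Or.inr (Or.inr (Or.inr (Or.inl ⟨rfl, q, rfl⟩)))) | exact Or.inr (Or.inr (Or.inr (Or.inr (Or.inr (Or.inl ⟨rfl, q, rfl⟩))))) | exact Or.inr (Or.inr (Or.inr (Or.inr (Or.inr (Or.inr (⟨rfl, q, rfl⟩))))))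
    case g2 q =>
      have hx' : x ∈ [2, 6] := hx
      have hy' : y ∈ [2, 6] := hy
      have hxd' : 20 * 6 ∣ 30 * x := hxd
      have hyd' : 30 * 6 ∣ 30 * y := hyd
      have h4 : 2 * 6 ≤ 8 * 6 := h2'
      simp only [List.mem_cons, List.not_mem_nil, or_false] at hx' hy'
      clear hx hy hxd hyd h2' hch hY
      first | omega | exact Or.inl ⟨rfl, q, rfl⟩ | exact Or.inr (Or.inl ⟨rfl, q, rfl⟩) | exact Or.inr (Or.inr (Or.inl ⟨rfl, q, rfl⟩)) | exact Or.inr (Or.inr (Or.inr (Or.inl ⟨rfl, q, rfl⟩))) | exact Or.inr (Or.inr (Or.inr (Or.inr (Or.inl ⟨rfl, q, rfl⟩)))) | exact Or.inr (Or.inr (Or.inr (Or.inr (Or.inr (Or.inl ⟨rfl, q, rfl⟩))))) | exact Or.inr (Or.inr (Or.inr (Or.inr (Or.inr (Or.inr (⟨rfl, q, rfl⟩))))))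
    case f4 q =>
      have hx' : x ∈ [2, 6, 8, 12] := hx
      have hy' : y ∈ [2, 6, 8, 12] := hy
      have hxd' : 20 * 12 ∣ 30 * x := hxd
      have hyd' : 30 * 12 ∣ 30 * y := hyd
      have h4 : 2 * 24 ≤ 8 * 12 := h2'
      simp only [List.mem_cons, List.not_mem_nil, or_false] at hx' hy'
      clear hx hy hxd hyd h2' hch hY
      first | omega | exact Or.inl ⟨rfl, q, rfl⟩ | exact Or.inr (Or.inl ⟨rfl, q, rfl⟩) | exact Or.inr (Or.inr (Or.inl ⟨rfl, q, rfl⟩)) | exact Or.inr (Or.inr (Or.inr (Or.inl ⟨rfl, q, rfl⟩))) | exact Or.inr (Or.inr (Or.inr (Or.inr (Or.inl ⟨rfl, q, rfl⟩)))) | exact Or.inr (Or.inr (Or.inr (Or.inr (Or.inr (Or.inl ⟨rfl, q, rfl⟩))))) | exact Or.inr (Or.inr (Or.inr (Or.inr (Or.inr (Or.inr (⟨rfl, q, rfl⟩))))))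
    case e6 q =>
      have hx' : x ∈ [2, 5, 6, 8, 9, 12] := hx
      have hy' : y ∈ [2, 5, 6, 8, 9, 12] := hy
      have hxd' : 20 * 12 ∣ 30 * x := hxd
      have hyd' : 30 * 12 ∣ 30 * y := hyd
      have h4 : 2 * 36 ≤ 8 * 12 := h2'
      obtain ⟨j, hj, hjd⟩ := hY 9 (by norm_num) (show 9 ∈ [2, 3, 4, 5, 6, 8, 9, 12] by decide)
      have hjd' : 30 * 9 ∣ 12 * j := hjd
      simp only [List.mem_cons, List.not_mem_nil, or_false] at hj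
      simp only [List.mem_cons, List.not_mem_nil, or_false] at hx' hy'
      clear hx hy hxd hyd h2' hch hY
      first | omega | exact Or.inl ⟨rfl, q, rfl⟩ | exact Or.inr (Or.inl ⟨rfl, q, rfl⟩) | exact Or.inr (Or.inr (Or.inl ⟨rfl, q, rfl⟩)) | exact Or.inr (Or.inr (Or.inr (Or.inl ⟨rfl, q, rfl⟩))) | exact Or.inr (Or.inr (Or.inr (Or.inr (Or.inl ⟨rfl, q, rfl⟩)))) | exact Or.inr (Or.inr (Or.inr (Or.inr (Or.inr (Or.inl ⟨rfl, q, rfl⟩))))) | exact Or.inr (Or.inr (Or.inr (Or.inr (Or.inr (Or.inr (⟨rfl, q, rfl⟩))))))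
    case e7 q =>
      have hx' : x ∈ [2, 6, 8, 10, 12, 14, 18] := hx
      have hy' : y ∈ [2, 6, 8, 10, 12, 14, 18] := hy
      have hxd' : 20 * 18 ∣ 30 * x := hxd
      have hyd' : 30 * 18 ∣ 30 * y := hyd
      have h4 : 2 * 63 ≤ 8 * 18 := h2'
      obtain ⟨j, hj, hjd⟩ := hY 7 (by norm_num) (show 7 ∈ [2, 3, 4, 5, 6, 7, 8, 9, 10, 12, 14, 18] by decide)
      have hjd' : 30 * 7 ∣ 18 * j := hjd
      simp only [List.mem_cons, List.not_mem_nil, or_false] at hj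
      simp only [List.mem_cons, List.not_mem_nil, or_false] at hx' hy'
      clear hx hy hxd hyd h2' hch hY
      first | omega | exact Or.inl ⟨rfl, q, rfl⟩ | exact Or.inr (Or.inl ⟨rfl, q, rfl⟩) | exact Or.inr (Or.inr (Or.inl ⟨rfl, q, rfl⟩)) | exact Or.inr (Or.inr (Or.inr (Or.inl ⟨rfl, q, rfl⟩))) | exact Or.inr (Or.inr (Or.inr (Or.inr (Or.inl ⟨rfl, q, rfl⟩)))) | exact Or.inr (Or.inr (Or.inr (Or.inr (Or.inr (Or.inl ⟨rfl, q, rfl⟩))))) | exact Or.inr (Or.inr (Or.inr (Or.inr (Or.inr (Or.inr (⟨rfl, q, rfl⟩))))))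
    case e8 q =>
      have hx' : x ∈ [2, 8, 12, 14, 18, 20, 24, 30] := hx
      have hy' : y ∈ [2, 8, 12, 14, 18, 20, 24, 30] := hy
      have hxd' : 20 * 30 ∣ 30 * x := hxd
      have hyd' : 30 * 30 ∣ 30 * y := hyd
      have h4 : 2 * 120 ≤ 8 * 30 := h2'
      simp only [List.mem_cons, List.not_mem_nil, or_false] at hx' hy'
      clear hx hy hxd hyd h2' hch hY
      first | omega | exact Or.inl ⟨rfl, q, rfl⟩ | exact Or.inr (Or.inl ⟨rfl, q, rfl⟩) | exact Or.inr (Or.inr (Or.inl ⟨rfl, q, rfl⟩)) | exact Or.inr (Or.inr (Or.inr (Or.inl ⟨rfl, q, rfl⟩))) | exact Or.inr (Or.inr (Or.inr (Or.inr (Or.inl ⟨rfl, q, rfl⟩)))) | exact Or.inr (Or.inr (Or.inr (Or.inr (Or.inr (Or.inl ⟨rfl, q, rfl⟩))))) | exact Or.inr (Or.inr (Or.inr (Or.inr (Or.inr (Or.inr (⟨rfl, q, rfl⟩))))))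
    case te6 q =>
      have hx' : x ∈ [2, 10, 6, 8, 18, 12] := hx
      have hy' : y ∈ [2, 10, 6, 8, 18, 12] := hy
      have hxd' : 20 * 18 ∣ 30 * x := hxd
      have hyd' : 30 * 18 ∣ 30 * y := hyd
      have h4 : 2 * 36 ≤ 8 * 18 := h2'
      obtain ⟨j, hj, hjd⟩ := hY 8 (by norm_num) (show 8 ∈ [2, 3, 4, 6, 8, 10, 12, 18] by decide)
      have hjd' : 30 * 8 ∣ 18 * j := hjd
      simp only [List.mem_cons, List.not_mem_nil, or_false] at hj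
      simp only [List.mem_cons, List.not_mem_nil, or_false] at hx' hy'
      clear hx hy hxd hyd h2' hch hY
      first | omega | exact Or.inl ⟨rfl, q, rfl⟩ | exact Or.inr (Or.inl ⟨rfl, q, rfl⟩) | exact Or.inr (Or.inr (Or.inl ⟨rfl, q, rfl⟩)) | exact Or.inr (Or.inr (Or.inr (Or.inl ⟨rfl, q, rfl⟩))) | exact Or.inr (Or.inr (Or.inr (Or.inr (Or.inl ⟨rfl, q, rfl⟩)))) | exact Or.inr (Or.inr (Or.inr (Or.inr (Or.inr (Or.inl ⟨rfl, q, rfl⟩))))) | exact Or.inr (Or.inr (Or.inr (Or.inr (Or.inr (Or.inr (⟨rfl, q, rfl⟩))))))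
    case td4 q =>
      have hx' : x ∈ [2, 6, 12] := hx
      have hy' : y ∈ [2, 6, 12] := hy
      have hxd' : 20 * 12 ∣ 30 * x := hxd
      have hyd' : 30 * 12 ∣ 30 * y := hyd
      have h4 : 2 * 12 ≤ 8 * 12 := h2'
      simp only [List.mem_cons, List.not_mem_nil, or_false] at hx' hy'
      clear hx hy hxd hyd h2' hch hY
      first | omega | exact Or.inl ⟨rfl, q, rfl⟩ | exact Or.inr (Or.inl ⟨rfl, q, rfl⟩) | exact Or.inr (Or.inr (Or.inl ⟨rfl, q, rfl⟩)) | exact Or.inr (Or.inr (Or.inr (Or.inl ⟨rfl, q, rfl⟩))) | exact Or.inr (Or.inr (Or.inr (Or.inr (Or.inl ⟨rfl, q, rfl⟩)))) | exact Or.inr (Or.inr (Or.inr (Or.inr (Or.inr (Or.inl ⟨rfl, q, rfl⟩))))) | exact Or.inr (Or.inr (Or.inr (Or.inr (Or.inr (Or.inr (⟨rfl, q, rfl⟩))))))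
    case sz q =>
      have hx' : x ∈ [1, 4] := hx
      have hy' : y ∈ [1, 4] := hy
      have hxd' : 20 * 4 ∣ 30 * x := hxd
      have hyd' : 30 * 4 ∣ 30 * y := hyd
      have h4 : 2 * 2 ≤ 8 * 4 := h2'
      simp only [List.mem_cons, List.not_mem_nil, or_false] at hx' hy'
      clear hx hy hxd hyd h2' hch hY
      first | omega | exact Or.inl ⟨rfl, q, rfl⟩ | exact Or.inr (Or.inl ⟨rfl, q, rfl⟩) | exact Or.inr (Or.inr (Or.inl ⟨rfl, q, rfl⟩)) | exact Or.inr (Or.inr (Or.inr (Or.inl ⟨rfl, q, rfl⟩))) | exact Or.inr (Or.inr (Or.inr (Or.inr (Or.inl ⟨rfl, q, rfl⟩)))) | exact Or.inr (Or.inr (Or.inr (Or.inr (Or.inr (Or.inl ⟨rfl, q, rfl⟩))))) | exact Or.inr (Or.inr (Or.inr (Or.inr (Or.inr (Or.inr (⟨rfl, q, rfl⟩))))))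
    case ree q =>
      have hx' : x ∈ [1, 6] := hx
      have hy' : y ∈ [1, 6] := hy
      have hxd' : 20 * 6 ∣ 30 * x := hxd
      have hyd' : 30 * 6 ∣ 30 * y := hyd
      have h4 : 2 * 3 ≤ 8 * 6 := h2'
      simp only [List.mem_cons, List.not_mem_nil, or_false] at hx' hy'
      clear hx hy hxd hyd h2' hch hY
      first | omega | exact Or.inl ⟨rfl, q, rfl⟩ | exact Or.inr (Or.inl ⟨rfl, q, rfl⟩) | exact Or.inr (Or.inr (Or.inl ⟨rfl, q, rfl⟩)) | exact Or.inr (Or.inr (Or.inr (Or.inl ⟨rfl, q, rfl⟩))) | exact Or.inr (Or.inr (Or.inr (Or.inr (Or.inl ⟨rfl, q, rfl⟩)))) | exact Or.inr (Or.inr (Or.inr (Or.inr (Or.inr (Or.inl ⟨rfl, q, rfl⟩))))) | exact Or.inr (Or.inr (Or.inr (Or.inr (Or.inr (Or.inr (⟨rfl, q, rfl⟩))))))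
    case tf4 q =>
      have hx' : x ∈ [1, 6, 4, 12] := hx
      have hy' : y ∈ [1, 6, 4, 12] := hy
      have hxd' : 20 * 12 ∣ 30 * x := hxd
      have hyd' : 30 * 12 ∣ 30 * y := hyd
      have h4 : 2 * 12 ≤ 8 * 12 := h2'
      simp only [List.mem_cons, List.not_mem_nil, or_false] at hx' hy'
      clear hx hy hxd hyd h2' hch hY
      first | omega | exact Or.inl ⟨rfl, q, rfl⟩ | exact Or.inr (Or.inl ⟨rfl, q, rfl⟩) | exact Or.inr (Or.inr (Or.inl ⟨rfl, q, rfl⟩)) | exact Or.inr (Or.inr (Or.inr (Or.inl ⟨rfl, q, rfl⟩))) | exact Or.inr (Or.inr (Or.inr (Or.inr (Or.inl ⟨rfl, q, rfl⟩)))) | exact Or.inr (Or.inr (Or.inr (Or.inr (Or.inr (Or.inl ⟨rfl, q, rfl⟩))))) | exact Or.inr (Or.inr (Or.inr (Or.inr (Or.inr (Or.inr (⟨rfl, q, rfl⟩))))))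
    all_goals exact absurd hch not_false


theorem hpr_e8 {i s : ℕ} (hi : i = 30) (hs : s.Prime) (h : 5 < s) : ¬ s ∣ i := by
  subst hi
  exact hpr_aux (by decide) hs h

/-- **`E_8(q)`, classes 24 and 30.** -/
theorem charp_e8_2430 (hp : p.Prime) (hf : 1 ≤ f) (hg : Cond g) (hch : HasChar p g)
    (hc : den g * c = num g) (hdvd : c ∣ num (.e8 (p ^ f))) (hs1 : HT p f 24 g c) (hs2 : HT p f 30 g c) :
    g = .psl 5 (p ^ (f * 6)) ∨ g = .psp 5 (p ^ (f * 3)) ∨ g = .oodd 5 (p ^ (f * 3)) ∨ g = .oplus 6 (p ^ (f * 3)) ∨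
      g = .ominus 5 (p ^ (f * 3)) ∨ g = .e8 (p ^ f) := by
  obtain ⟨f₁, hf₁, hfl, hK, hY⟩ := kd_all hp hg hch hc
  obtain ⟨i, hi, hei, hfM, h2, h1, h3, hYc⟩ := compP hp hf hg hch hf₁ hfl hK hY (td_e8 hp hf hdvd)
    (by norm_num) (by norm_num) (by norm_num) (fun i hi hei s hs h5 => by
      have hi' : i ∈ [2, 8, 12, 14, 18, 20, 24, 30] := hi
      simp only [List.mem_cons, List.not_mem_nil, or_false] at hi'
      exact hpr_e8 (by omega) hs (by omega)) hs1 hs2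
  rcases elimP_e8_24_30 hg hch hi hei h2 h1 h3 hYc with ⟨rfl, q, rfl⟩ | ⟨rfl, q, rfl⟩ | ⟨rfl, q, rfl⟩ | ⟨rfl, q, rfl⟩ |
    ⟨rfl, q, rfl⟩ | ⟨rfl, q, rfl⟩
  · obtain rfl : q = p ^ f₁ := hfl
    have h5 : f₁ * 5 = f * 30 := hfM
    obtain rfl : f₁ = f * 6 := by omega
    exact Or.inl rfl
  · obtain rfl : q = p ^ f₁ := hfl
    have h5 : f₁ * (2 * 5) = f * 30 := hfM
    obtain rfl : f₁ = f * 3 := by omega
    exact Or.inr (Or.inl rfl)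
  · obtain rfl : q = p ^ f₁ := hfl
    have h5 : f₁ * (2 * 5) = f * 30 := hfM
    obtain rfl : f₁ = f * 3 := by omega
    exact Or.inr (Or.inr (Or.inl rfl))
  · obtain rfl : q = p ^ f₁ := hfl
    have h5 : f₁ * (2 * (6 - 1)) = f * 30 := hfM
    obtain rfl : f₁ = f * 3 := by omega
    exact Or.inr (Or.inr (Or.inr (Or.inl rfl)))
  · obtain rfl : q = p ^ f₁ := hfl
    have h5 : f₁ * (2 * 5) = f * 30 := hfM
    obtain rfl : f₁ = f * 3 := by omega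
    exact Or.inr (Or.inr (Or.inr (Or.inr (Or.inl rfl))))
  · obtain rfl : q = p ^ f₁ := hfl
    rw [same_fld (M := 30) (by norm_num) hfM]
    exact Or.inr (Or.inr (Or.inr (Or.inr (Or.inr rfl))))

/-- **`E_8(q)`, classes 20 and 30.** -/
theorem charp_e8_2030 (hp : p.Prime) (hf : 1 ≤ f) (hg : Cond g) (hch : HasChar p g)
    (hc : den g * c = num g) (hdvd : c ∣ num (.e8 (p ^ f))) (hs1 : HT p f 20 g c) (hs2 : HT p f 30 g c) :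
    g = .psl 3 (p ^ (f * 10)) ∨ g = .psp 3 (p ^ (f * 5)) ∨ g = .oodd 3 (p ^ (f * 5)) ∨ g = .psu 4 (p ^ (f * 5)) ∨
      g = .oplus 4 (p ^ (f * 5)) ∨ (∃ k, f = 2 * k ∧ g = .f4 (p ^ (k * 5))) ∨ g = .e8 (p ^ f) := by
  obtain ⟨f₁, hf₁, hfl, hK, hY⟩ := kd_all hp hg hch hc
  obtain ⟨i, hi, hei, hfM, h2, h1, h3, hYc⟩ := compP hp hf hg hch hf₁ hfl hK hY (td_e8 hp hf hdvd)
    (by norm_num) (by norm_num) (by norm_num) (fun i hi hei s hs h5 => by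
      have hi' : i ∈ [2, 8, 12, 14, 18, 20, 24, 30] := hi
      simp only [List.mem_cons, List.not_mem_nil, or_false] at hi'
      exact hpr_e8 (by omega) hs (by omega)) hs1 hs2
  rcases elimP_e8_20_30 hg hch hi hei h2 h1 h3 hYc with ⟨rfl, q, rfl⟩ | ⟨rfl, q, rfl⟩ | ⟨rfl, q, rfl⟩ | ⟨rfl, q, rfl⟩ |
    ⟨rfl, q, rfl⟩ | ⟨rfl, q, rfl⟩ | ⟨rfl, q, rfl⟩
  · obtain rfl : q = p ^ f₁ := hfl
    have h5 : f₁ * 3 = f * 30 := hfM
    obtain rfl : f₁ = f * 10 := by omega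
    exact Or.inl rfl
  · obtain rfl : q = p ^ f₁ := hfl
    have h5 : f₁ * (2 * 3) = f * 30 := hfM
    obtain rfl : f₁ = f * 5 := by omega
    exact Or.inr (Or.inl rfl)
  · obtain rfl : q = p ^ f₁ := hfl
    have h5 : f₁ * (2 * 3) = f * 30 := hfM
    obtain rfl : f₁ = f * 5 := by omega
    exact Or.inr (Or.inr (Or.inl rfl))
  · obtain rfl : q = p ^ f₁ := hfl
    have h5 : f₁ * 6 = f * 30 := hfM
    obtain rfl : f₁ = f * 5 := by omega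
    exact Or.inr (Or.inr (Or.inr (Or.inl rfl)))
  · obtain rfl : q = p ^ f₁ := hfl
    have h5 : f₁ * (2 * (4 - 1)) = f * 30 := hfM
    obtain rfl : f₁ = f * 5 := by omega
    exact Or.inr (Or.inr (Or.inr (Or.inr (Or.inl rfl))))
  · obtain rfl : q = p ^ f₁ := hfl
    have h5 : f₁ * 12 = f * 30 := hfM
    refine Or.inr (Or.inr (Or.inr (Or.inr (Or.inr (Or.inl ⟨f / 2, by omega, ?_⟩)))))
    rw [show f₁ = f / 2 * 5 by omega]
  · obtain rfl : q = p ^ f₁ := hfl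
    rw [same_fld (M := 30) (by norm_num) hfM]
    exact Or.inr (Or.inr (Or.inr (Or.inr (Or.inr (Or.inr rfl)))))

end Cfsg.Agent.H325.Same
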